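-- helper65 library: PIECE H1 of CALL S3620 (helper32): imprimitive => stabiliser below a coatom.
import Mathlib
import Cfsg.Agent.Helper32.JorDefs

set_option autoImplicit false

namespace Cfsg.Agent.Helper65.JorH1

open Equiv Cfsg.Agent.Helper32.Jor

/-- PIECE H1. A transitive imprimitive action of a finite group: the point stabiliser lies
properly in a maximal subgroup. -/
theorem exists_coatom_of_not_isPreprimitive {G Ω : Type*} [Group G] [Finite G] [MulAction G Ω]
    [MulAction.IsPretransitive G Ω] [Nontrivial Ω] (hnp : ¬ MulAction.IsPreprimitive G Ω) (a : Ω) :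
    ∃ M : Subgroup G, IsCoatom M ∧ MulAction.stabilizer G a < M := by
  have hnc : ¬ IsCoatom (MulAction.stabilizer G a) := fun h =>
    hnp ((MulAction.isCoatom_stabilizer_iff_preprimitive (G := G) a).mp h)
  have hne : MulAction.stabilizer G a ≠ ⊤ := by
    intro htop
    obtain ⟨b, hb⟩ := exists_ne a
    obtain ⟨g, hg⟩ := MulAction.exists_smul_eq G a b
    have h1 : g ∈ MulAction.stabilizer G a := by
      rw [htop]
      exact Subgroup.mem_top g
    rw [MulAction.mem_stabilizer_iff] at h1
    exact hb (hg.symm.trans h1)
  rcases eq_top_or_exists_le_coatom (MulAction.stabilizer G a) with h | ⟨M, hM, hle⟩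
  · exact absurd h hne
  · refine ⟨M, hM, lt_of_le_of_ne hle ?_⟩
    intro h
    rw [h] at hnc
    exact hnc hM

end Cfsg.Agent.Helper65.JorH1
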