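-- helper65 library: PIECE H2 of CALL S3620 (helper32): the equivariant map onto cosets.
import Mathlib
import Cfsg.Agent.Helper32.JorDefs

set_option autoImplicit false

namespace Cfsg.Agent.Helper65.JorH2

open Equiv Cfsg.Agent.Helper32.Jor

/-- PIECE H2. The natural equivariant map `Ω → G ⧸ M`, `g • a ↦ g M`, for `M ≥ G_a`. -/
theorem exists_equivariant_map {G Ω : Type*} [Group G] [MulAction G Ω]
    [MulAction.IsPretransitive G Ω] (a : Ω) (M : Subgroup G) (hM : MulAction.stabilizer G a ≤ M) :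
    ∃ π : Ω → G ⧸ M, (∀ (g : G) (ω : Ω), π (g • ω) = g • π ω) ∧ π a = ((1 : G) : G ⧸ M) := by
  have hex : ∀ ω : Ω, ∃ g : G, g • a = ω := fun ω => MulAction.exists_smul_eq G a ω
  choose γ hγ using hex
  have hwd : ∀ g g' : G, g • a = g' • a → ((g : G) : G ⧸ M) = ((g' : G) : G ⧸ M) := by
    intro g g' h
    rw [QuotientGroup.eq]
    apply hM
    rw [MulAction.mem_stabilizer_iff, mul_smul, ← h, inv_smul_smul]
  refine ⟨fun ω => ((γ ω : G) : G ⧸ M), ?_, ?_⟩
  · intro g ω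
    show ((γ (g • ω) : G) : G ⧸ M) = g • ((γ ω : G) : G ⧸ M)
    have h1 : g • ((γ ω : G) : G ⧸ M) = ((g * γ ω : G) : G ⧸ M) := rfl
    rw [h1]
    apply hwd
    rw [hγ, mul_smul, hγ]
  · show ((γ a : G) : G ⧸ M) = ((1 : G) : G ⧸ M)
    apply hwd
    rw [hγ, one_smul]

end Cfsg.Agent.Helper65.JorH2
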