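import Mathlib
import Cfsg.Agent.Helper40.KGLDefs
import Cfsg.Agent.Helper40.KSLDefs
import Cfsg.Agent.Helper40.KGLP2

/-!
# CALL S2479, piece L2: every monic `f` of degree `n ≥ 2` with `nu f = 1` is the
characteristic polynomial of a non-identity element of `SL_n(F)`
-/

set_option autoImplicit false

namespace Cfsg.Agent.Helper65

open Polynomial Cfsg.Agent.Helper40.KGL Cfsg.Agent.Helper40.KSL
open scoped DirectSum
open Classical

universe u v

theorem exists_sl_charpoly {F : Type u} [Field F] {n : ℕ} (hn : 2 ≤ n) (f : F[X]) (hm : f.Monic)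
    (hd : f.natDegree = n) (h1 : nu f = 1) :
    ∃ g : Matrix.SpecialLinearGroup (Fin n) F,
      (g : Matrix (Fin n) (Fin n) F).charpoly = f ∧ g ≠ 1 := by
  have h0 : f.coeff 0 ≠ 0 := by
    intro h
    unfold nu at h1
    rw [h, mul_zero] at h1
    exact zero_ne_one h1
  obtain ⟨g₀, hg₀⟩ := exists_gl_charpoly f hm hd h0
  have hdet : (g₀ : Matrix (Fin n) (Fin n) F).det = 1 := by
    rw [Matrix.det_eq_sign_charpoly_coeff, hg₀, Fintype.card_fin, ← hd]
    exact h1
  by_cases hone : (g₀ : Matrix (Fin n) (Fin n) F) = 1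
  · have hf : f = (X - 1) ^ n := by
      rw [← hg₀, hone, Matrix.charpoly_one, Fintype.card_fin]
    obtain ⟨i0, hi0⟩ : ∃ i0 : Fin n, i0.val = 0 := ⟨⟨0, by omega⟩, rfl⟩
    obtain ⟨i1, hi1⟩ : ∃ i1 : Fin n, i1.val = 1 := ⟨⟨1, by omega⟩, rfl⟩
    have hne : i0 ≠ i1 := by
      intro h
      have := congrArg Fin.val h
      omega
    have htdet : (Matrix.transvection i0 i1 (1 : F)).det = 1 :=
      Matrix.det_transvection_of_ne i0 i1 hne 1
    have hentry : ∀ i j : Fin n, Matrix.transvection i0 i1 (1 : F) i j =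
        (if i = j then 1 else 0) + (if i = i0 ∧ j = i1 then 1 else 0) := by
      intro i j
      simp only [Matrix.transvection, Matrix.add_apply, Matrix.one_apply, Matrix.single_apply]
      congr 1
      by_cases h : i = i0 ∧ j = i1
      · rw [if_pos h, if_pos ⟨h.1.symm, h.2.symm⟩]
      · rw [if_neg h, if_neg (fun h' => h ⟨h'.1.symm, h'.2.symm⟩)]
    refine ⟨⟨Matrix.transvection i0 i1 (1 : F), htdet⟩, ?_, ?_⟩
    · show (Matrix.transvection i0 i1 (1 : F)).charpoly = f
      have hut : (Matrix.transvection i0 i1 (1 : F)).BlockTriangular id := by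
        intro i j hij
        have hij' : j.val < i.val := hij
        rw [hentry]
        have h2 : ¬ (i = j) := by
          intro h; rw [h] at hij'; exact lt_irrefl _ hij'
        have h3 : ¬ (i = i0 ∧ j = i1) := by
          rintro ⟨rfl, rfl⟩
          omega
        rw [if_neg h2, if_neg h3, add_zero]
      rw [Matrix.charpoly_of_upperTriangular _ hut, hf]
      have hdiag : ∀ i : Fin n, Matrix.transvection i0 i1 (1 : F) i i = 1 := by
        intro i
        rw [hentry]
        have h3 : ¬ (i = i0 ∧ i = i1) := by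
          rintro ⟨rfl, h⟩
          exact hne h
        rw [if_pos rfl, if_neg h3, add_zero]
      simp only [hdiag, map_one]
      rw [Finset.prod_const, Finset.card_univ, Fintype.card_fin]
    · intro h
      have h2 := congrArg
        (fun s : Matrix.SpecialLinearGroup (Fin n) F => (s : Matrix (Fin n) (Fin n) F) i0 i1) h
      have h3 : Matrix.transvection i0 i1 (1 : F) i0 i1 = (1 : Matrix (Fin n) (Fin n) F) i0 i1 :=
        h2
      rw [hentry, Matrix.one_apply, if_neg hne, if_pos ⟨rfl, rfl⟩, zero_add] at h3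
      exact one_ne_zero h3
  · refine ⟨⟨g₀, hdet⟩, hg₀, fun h => hone ?_⟩
    exact congrArg
      (fun s : Matrix.SpecialLinearGroup (Fin n) F => (s : Matrix (Fin n) (Fin n) F)) h

end Cfsg.Agent.Helper65
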