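-- helper65 library: PIECE N3 of CALL S0999 (helper9, Brauer-Reynolds): the arithmetic dichotomy.
import Mathlib

set_option autoImplicit false

namespace Cfsg.Agent.Helper65

/-- auxiliary: the exceptional sub-case `t = 1`, `n = 1` is impossible. -/
theorem br_num_cases_aux1 (p q a b x₀ c : ℕ) (ε : ℤ) (hp3 : 3 ≤ p) (hpodd : Odd p)
    (hpq : p = q + 1) (hx : 2 ≤ x₀) (hε : ε = 1 ∨ ε = -1)
    (m' : ℤ) (hm' : ε * (q : ℤ) - (x₀ : ℤ) = (p : ℤ) * m')
    (hc : q * (1 + p) = x₀ * c)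
    (hsq : x₀ ^ 2 < p * q * (1 + p))
    (hrel : ε * (x₀ : ℤ) = 1 + (a : ℤ) * (1 + p) - (b : ℤ) * ((p : ℤ) - 1)) : False := by
  have hpZ : (p : ℤ) = q + 1 := by exact_mod_cast hpq
  have hcZ : (q : ℤ) * (1 + p) = x₀ * c := by exact_mod_cast hc
  have hsqZ : (x₀ : ℤ) ^ 2 < p * q * (1 + p) := by exact_mod_cast hsq
  have hp3Z : (3 : ℤ) ≤ p := by exact_mod_cast hp3
  have hxZ : (2 : ℤ) ≤ x₀ := by exact_mod_cast hx
  have hε2 : ε * ε = 1 := by rcases hε with h | h <;> rw [h] <;> norm_num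
  have hεodd : Odd ε := by rcases hε with h | h <;> rw [h] <;> decide
  have hpoddZ : Odd (p : ℤ) := by exact_mod_cast hpodd
  -- x₀ = u * p - ε
  set u : ℤ := ε - m' with hu
  have hxu : (x₀ : ℤ) = u * p - ε := by
    rw [hu]
    linear_combination (-1 : ℤ) * hm' - ε * hpZ
  -- x₀ is odd
  have hxodd : Odd (x₀ : ℤ) := by
    have h1 : Odd (ε * (x₀ : ℤ)) := by
      rw [hrel]
      obtain ⟨r, hr⟩ := hpoddZ
      refine ⟨(a : ℤ) * (r + 1) - (b : ℤ) * r, ?_⟩
      rw [hr]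
      ring
    exact (Int.odd_mul.mp h1).2
  have hueven : Even u := by
    have h1 : Odd (u * p - ε) := by rw [← hxu]; exact hxodd
    have h2 : Even (u * (p : ℤ)) := by
      have h3 : u * (p : ℤ) = (u * p - ε) + ε := by ring
      rw [h3]
      exact Odd.add_odd h1 hεodd
    rcases Int.even_mul.mp h2 with h | h
    · exact h
    · exact absurd h (Int.not_even_iff_odd.mpr hpoddZ)
  have hu1 : 1 ≤ u := by
    by_contra hcon
    have h1 : u ≤ 0 := by omega
    have h2 : u * (p : ℤ) ≤ 0 := mul_nonpos_of_nonpos_of_nonneg h1 (by omega)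
    rcases hε with h | h <;> rw [h] at hxu <;> omega
  have hu2 : 2 ≤ u := by
    obtain ⟨r, hr⟩ := hueven
    omega
  have hx0pos : (0 : ℤ) < x₀ := by omega
  have hcpos : (0 : ℤ) < c := by
    by_contra hcon
    have h1 : (c : ℤ) = 0 := by
      have := Int.natCast_nonneg c
      omega
    rw [h1, mul_zero] at hcZ
    have h2 : (0 : ℤ) < (q : ℤ) * (1 + p) := by
      have hq : (0 : ℤ) < q := by omega
      positivity
    omega
  -- c = ε + p * w
  set w : ℤ := ε * (u * c - p) with hw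
  have hcw : (c : ℤ) = ε + p * w := by
    have h1 : (u * (p : ℤ) - ε) * c = ((p : ℤ) - 1) * (1 + p) := by
      rw [← hxu, ← hcZ, hpZ]
      ring
    rw [hw]
    linear_combination (-ε) * h1 - (c : ℤ) * hε2
  have hw0 : 0 ≤ w := by
    by_contra hcon
    have h1 : w ≤ -1 := by omega
    have h2 : (p : ℤ) * w ≤ (p : ℤ) * (-1) := mul_le_mul_of_nonneg_left h1 (by omega)
    rcases hε with h | h <;> rw [h] at hcw <;> omega
  have hkey : u * w * p + ε * (u - w) = p := by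
    have h1 : (u * (p : ℤ) - ε) * (ε + p * w) = ((p : ℤ) - 1) * (1 + p) := by
      rw [← hxu, ← hcw, ← hcZ, hpZ]
      ring
    have h2 : (p : ℤ) * (u * w * p + ε * (u - w) - p) = 0 := by
      linear_combination h1 + hε2
    rcases mul_eq_zero.mp h2 with h | h
    · omega
    · linarith
  have hlt : (x₀ : ℤ) < p * c := by
    have h1 : (x₀ : ℤ) ^ 2 < p * (x₀ * c) := by
      rw [← hcZ]
      linarith
    nlinarith
  rcases eq_or_lt_of_le hw0 with h0 | hpos
  · -- w = 0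
    rw [← h0, mul_zero, add_zero] at hcw
    have hε1 : ε = 1 := by
      rcases hε with h | h
      · exact h
      · rw [h] at hcw; omega
    rw [hε1] at hcw hxu
    rw [hcw, mul_one] at hlt
    have h2 : 2 * (p : ℤ) ≤ u * p := mul_le_mul_of_nonneg_right hu2 (by omega)
    omega
  · have hw1 : 1 ≤ w := by omega
    have hwp : (p : ℤ) ≤ w * p := by
      have := mul_le_mul_of_nonneg_right hw1 (by omega : (0 : ℤ) ≤ p)
      linarith
    rcases hε with h | h
    · rw [h] at hkey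
      have h3 : 2 * (w * (p : ℤ)) ≤ u * (w * p) :=
        mul_le_mul_of_nonneg_right hu2 (by nlinarith)
      nlinarith
    · rw [h] at hkey
      have h3 : 2 * (w * (p : ℤ) - 1) ≤ u * (w * p - 1) :=
        mul_le_mul_of_nonneg_right hu2 (by nlinarith)
      nlinarith

/-- auxiliary: the main case `n + 1 = t`. -/
theorem br_num_cases_aux2 (p q t n a b x₀ c : ℕ) (ε : ℤ) (hp : p.Prime) (hq2 : 2 ≤ q)
    (ht2 : 2 ≤ t) (hpt : p = q * t + 1) (hnt : n + 1 = t) (hab : 1 + a + b = q) (hx : 2 ≤ x₀)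
    (hε : ε = 1 ∨ ε = -1) (m' : ℤ) (hm' : ε * (q : ℤ) - (x₀ : ℤ) = (p : ℤ) * m')
    (hc : q * (1 + n * p) = x₀ * c) (hsq : x₀ ^ 2 < p * q * (1 + n * p))
    (hrel : ε * (x₀ : ℤ) = 1 + (a : ℤ) * (1 + n * p) - (b : ℤ) * ((p : ℤ) - 1)) :
    (ε = 1 ∧ x₀ = q ∧ q = 1 + a * t ∧ 1 ≤ a) ∨ (ε = -1 ∧ x₀ = p - q ∧ q = 2 + a * t) := by
  have hpZ : (p : ℤ) = q * t + 1 := by exact_mod_cast hpt
  have hnZ : (n : ℤ) = t - 1 := by
    have h1 : (n : ℤ) + 1 = t := by exact_mod_cast hnt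
    linarith
  have hcZ : (q : ℤ) * (1 + n * p) = x₀ * c := by exact_mod_cast hc
  have hsqZ : (x₀ : ℤ) ^ 2 < p * q * (1 + n * p) := by exact_mod_cast hsq
  have habZ : (b : ℤ) = q - 1 - a := by
    have h1 : 1 + (a : ℤ) + b = q := by exact_mod_cast hab
    linarith
  have hqZ : (2 : ℤ) ≤ q := by exact_mod_cast hq2
  have htZ : (2 : ℤ) ≤ t := by exact_mod_cast ht2
  have hxZ : (2 : ℤ) ≤ x₀ := by exact_mod_cast hx
  have hε2 : ε * ε = 1 := by rcases hε with h | h <;> rw [h] <;> norm_num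
  have hNZ : (1 + (n : ℤ) * p) = t * (p - q) := by
    rw [hnZ, hpZ]
    ring
  have hqt : 2 * (q : ℤ) ≤ q * t := by nlinarith
  have hqp : (q : ℤ) < p := by omega
  have hp5 : (5 : ℤ) ≤ p := by nlinarith
  have hpq1 : (p : ℤ) - 1 = q * t := by linarith
  have hcpos : (0 : ℤ) < c := by
    by_contra hcon
    have h1 : (c : ℤ) = 0 := by
      have := Int.natCast_nonneg c
      omega
    rw [h1, mul_zero, hNZ] at hcZ
    have h2 : (0 : ℤ) < (q : ℤ) * (t * (p - q)) := by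
      have h3 : (0 : ℤ) < p - q := by omega
      positivity
    omega
  have hlt : (x₀ : ℤ) < p * c := by
    have h1 : (x₀ : ℤ) ^ 2 < p * (x₀ * c) := by
      rw [← hcZ]
      linarith
    nlinarith
  -- x₀ * c = (p - 1) * (p - q)
  have hprod : (x₀ : ℤ) * c = ((p : ℤ) - 1) * (p - q) := by
    rw [← hcZ, hNZ, hpq1]
    ring
  -- c ≡ ε mod p
  have hprime : Prime (p : ℤ) := Nat.prime_iff_prime_int.mp hp
  have hdvd : (p : ℤ) ∣ (q : ℤ) * (ε * c - 1) := by
    refine ⟨m' * c + q * n, ?_⟩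
    linear_combination (c : ℤ) * hm' - hcZ
  have hndvd : ¬ (p : ℤ) ∣ (q : ℤ) := by
    intro h
    have := Int.le_of_dvd (by omega) h
    omega
  obtain ⟨w₀, hw₀⟩ := (hprime.dvd_or_dvd hdvd).resolve_left hndvd
  have hcw : (c : ℤ) = ε + p * (ε * w₀) := by
    linear_combination ε * hw₀ - (c : ℤ) * hε2
  have hx0 : (x₀ : ℤ) = ε * q - p * m' := by linarith
  rcases hε with hε1 | hε1
  · left
    rw [hε1] at hx0 hcw hrel
    rw [one_mul] at hx0 hcw hrel
    have hm0 : m' ≤ 0 := by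
      by_contra hcon
      have h1 : (p : ℤ) * 1 ≤ p * m' := mul_le_mul_of_nonneg_left (by omega) (by omega)
      omega
    have hw0 : 0 ≤ w₀ := by
      by_contra hcon
      have h1 : (p : ℤ) * w₀ ≤ p * (-1) := mul_le_mul_of_nonneg_left (by omega) (by omega)
      omega
    have hm : m' = 0 := by
      by_contra hcon
      have h1 : (p : ℤ) * m' ≤ p * (-1) := mul_le_mul_of_nonneg_left (by omega) (by omega)
      have hx1 : (q : ℤ) + p ≤ x₀ := by omega
      rcases eq_or_lt_of_le hw0 with h0 | hpos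
      · rw [← h0, mul_zero, add_zero] at hcw
        rw [hcw, mul_one] at hlt
        omega
      · have h3 : (p : ℤ) * 1 ≤ p * w₀ := mul_le_mul_of_nonneg_left (by omega) (by omega)
        have hc1 : (1 : ℤ) + p ≤ c := by omega
        have h4 : ((q : ℤ) + p) * (1 + p) ≤ x₀ * c :=
          mul_le_mul hx1 hc1 (by omega) (by omega)
        rw [hprod] at h4
        have h5 : (0 : ℤ) < (p : ℤ) * q := mul_pos (by omega) (by omega)
        have h6 : ((q : ℤ) + p) * (1 + p) = ((p : ℤ) - 1) * (p - q) + (2 * p + 2 * (p * q)) := by ring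
        omega
    rw [hm, mul_zero, sub_zero] at hx0
    have hxq : x₀ = q := by exact_mod_cast hx0
    have h1 : (q : ℤ) = 1 + (a : ℤ) * (t * (p - q)) - (b : ℤ) * ((p : ℤ) - 1) := by
      rw [← hNZ, ← hx0]
      exact hrel
    have h2 : (p : ℤ) * ((q : ℤ) - 1 - a * t) = 0 := by
      linear_combination h1 + (a : ℤ) * hpZ - ((p : ℤ) - 1) * habZ
    have h3 : (q : ℤ) - 1 - a * t = 0 := by
      rcases mul_eq_zero.mp h2 with h | h
      · omega
      · exact h
    have hqa : q = 1 + a * t := by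
      have h4 : (q : ℤ) = 1 + a * t := by linarith
      exact_mod_cast h4
    refine ⟨hε1, hxq, hqa, ?_⟩
    rcases Nat.eq_zero_or_pos a with h | h
    · rw [h, zero_mul] at hqa
      omega
    · exact h
  · right
    rw [hε1] at hx0 hcw hrel
    have hm0 : m' ≤ -1 := by
      by_contra hcon
      have h1 : (p : ℤ) * 0 ≤ p * m' := mul_le_mul_of_nonneg_left (by omega) (by omega)
      omega
    have hw0 : w₀ ≤ -1 := by
      by_contra hcon
      have h1 : (p : ℤ) * 0 ≤ p * w₀ := mul_le_mul_of_nonneg_left (by omega) (by omega)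
      have h3 : (c : ℤ) = -1 - p * w₀ := by linarith
      omega
    have hcge : (p : ℤ) - 1 ≤ c := by
      have h1 : (p : ℤ) * w₀ ≤ p * (-1) := mul_le_mul_of_nonneg_left hw0 (by omega)
      have h3 : (c : ℤ) = -1 - p * w₀ := by linarith
      omega
    have hm : m' = -1 := by
      by_contra hcon
      have h1 : (p : ℤ) * m' ≤ p * (-2) := mul_le_mul_of_nonneg_left (by omega) (by omega)
      have hx1 : 2 * (p : ℤ) - q ≤ x₀ := by omega
      have h4 : (2 * (p : ℤ) - q) * (p - 1) ≤ x₀ * c :=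
        mul_le_mul hx1 hcge (by omega) (by omega)
      rw [hprod] at h4
      have h5 : (0 : ℤ) < ((p : ℤ) - 1) * p := mul_pos (by omega) (by omega)
      have h6 : (2 * (p : ℤ) - q) * (p - 1) = ((p : ℤ) - 1) * (p - q) + ((p : ℤ) - 1) * p := by ring
      omega
    rw [hm] at hx0
    have hx0' : (x₀ : ℤ) = p - q := by
      rw [hx0]
      ring
    have hxq : x₀ = p - q := by omega
    have h1 : -((p : ℤ) - q) = 1 + (a : ℤ) * (t * (p - q)) - (b : ℤ) * ((p : ℤ) - 1) := by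
      rw [← hNZ, ← hx0']
      linarith
    have h2 : (p : ℤ) * ((q : ℤ) - 2 - a * t) = 0 := by
      linear_combination h1 + (a : ℤ) * hpZ - ((p : ℤ) - 1) * habZ
    have h3 : (q : ℤ) - 2 - a * t = 0 := by
      rcases mul_eq_zero.mp h2 with h | h
      · omega
      · exact h
    have hqa : q = 2 + a * t := by
      have h4 : (q : ℤ) = 2 + a * t := by linarith
      exact_mod_cast h4
    exact ⟨hε1, hxq, hqa⟩

theorem br_num_cases (p q n a b x₀ : ℕ) (ε : ℤ) (hp : p.Prime) (hodd : p ≠ 2) (hq2 : 2 ≤ q)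
    (hqd : q ∣ p - 1) (hn : 1 ≤ n) (hlt : q * n < p) (hab : 1 + a + b = q) (hb : 1 ≤ b)
    (hdvd1 : (p - 1) ∣ q * (1 + n * p)) (hx : 2 ≤ x₀) (hε : ε = 1 ∨ ε = -1)
    (hxmod : (x₀ : ℤ) ≡ ε * (q : ℤ) [ZMOD p]) (hdvd : x₀ ∣ q * (1 + n * p))
    (hsq : x₀ ^ 2 < p * q * (1 + n * p))
    (hrel : ε * (x₀ : ℤ) = 1 + (a : ℤ) * (1 + n * p) - (b : ℤ) * ((p : ℤ) - 1)) :
    ∃ t : ℕ, 2 ≤ t ∧ q * t = p - 1 ∧ n + 1 = t ∧
      ((ε = 1 ∧ x₀ = q ∧ q = 1 + a * t ∧ 1 ≤ a) ∨ (ε = -1 ∧ x₀ = p - q ∧ q = 2 + a * t)) := by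
  have hp2 := hp.two_le
  have hp3 : 3 ≤ p := by omega
  have hpodd : Odd p := hp.odd_of_ne_two hodd
  obtain ⟨t, ht⟩ := hqd
  have hpt : p = q * t + 1 := by omega
  have ht1 : 1 ≤ t := by
    rcases Nat.eq_zero_or_pos t with h | h
    · subst h
      omega
    · exact h
  have htn : t ∣ n + 1 := by
    have h1 : q * t ∣ q * (1 + n * p) := by
      rw [← ht]
      exact hdvd1
    have h2 : t ∣ 1 + n * p := Nat.dvd_of_mul_dvd_mul_left (by omega) h1
    have h3 : 1 + n * p = (n + 1) + t * (n * q) := by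
      rw [hpt]
      ring
    rw [h3] at h2
    exact (Nat.dvd_add_left (dvd_mul_right t _)).mp h2
  have hnt : n ≤ t := by
    have h2 : q * n ≤ q * t := by omega
    exact Nat.le_of_mul_le_mul_left h2 (by omega)
  obtain ⟨k, hk⟩ := htn
  obtain ⟨c, hc⟩ := hdvd
  obtain ⟨m', hm'⟩ := Int.modEq_iff_dvd.mp hxmod
  have hk1 : k = 1 ∨ (k = 2 ∧ t = 1 ∧ n = 1) := by
    rcases Nat.lt_or_ge k 2 with h | h
    · left
      interval_cases k
      · omega
      · rfl
    · right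
      have h1 : t * 2 ≤ t * k := Nat.mul_le_mul_left t h
      have h2 : t = 1 := by omega
      subst h2
      omega
  rcases hk1 with hk1 | ⟨hk2, ht1', hn1⟩
  · subst hk1
    have hnt' : n + 1 = t := by omega
    have ht2 : 2 ≤ t := by omega
    exact ⟨t, ht2, by omega, hnt',
      br_num_cases_aux2 p q t n a b x₀ c ε hp hq2 ht2 hpt hnt' hab hx hε m' hm' hc hsq hrel⟩
  · exfalso
    subst ht1' hn1
    exact br_num_cases_aux1 p q a b x₀ c ε hp3 hpodd (by omega) hx hε m' hm' (by simpa using hc)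
      (by simpa using hsq) (by simpa using hrel)

end Cfsg.Agent.Helper65
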