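-- helper65 library: PIECE Nb of CALL S0999 (helper9, Brauer-Reynolds): the arithmetic of case (beta).
import Mathlib

set_option autoImplicit false

namespace Cfsg.Agent.Helper65

theorem br_num_beta_cubic (t q κ : ℚ) (ht : t ≠ 0) (hpq : t * q + 1 - q ≠ 0)
    (hp : t * q + 1 ≠ 0) :
    ((t * q + 1) * q * (t * (t * q + 1 - q))) *
        (1 + t ^ 2 * (-κ - 1) / (t * (t * q + 1 - q)) + t * κ / (t * q + 1 - q)
          + (t - 1) / (t * q + 1))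
      = (q * t) ^ 2 * (q * (t - 1)) := by
  field_simp
  ring

theorem br_num_beta {ι : Type*} (I K : Finset ι) (r : ι → ℤ) (w : ι → ℕ) (p q t a C : ℕ) (κ : ℤ)
    (ht : 2 ≤ t) (hq : q = 2 + a * t) (hp : p = t * q + 1) (hIcard : I.card = a)
    (hr : ∀ i ∈ I, |r i| ≤ (t : ℤ)) (hw : ∀ k ∈ K, 1 ≤ w k)
    (hκ : κ = 0 ∨ κ = 1 ∨ κ = -1) (hqC : q ∣ C)
    (E1 : (C : ℤ) ^ 2 = q * ((1 + ((t : ℤ) - 1) * p) + ∑ i ∈ I, r i ^ 2 + t * κ ^ 2))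
    (E2 : (C : ℤ) = 1 + ∑ i ∈ I, r i ^ 2 + t * κ ^ 2 + ∑ k ∈ K, r k ^ 2)
    (E3 : (0 : ℤ) = 1 + (1 + ((t : ℤ) - 1) * p) * ∑ i ∈ I, r i + t * κ * ((p : ℤ) - q)
      + p * ∑ k ∈ K, r k * (w k : ℤ))
    (E4 : -κ = 1 + ∑ i ∈ I, r i)
    (E5 : ∑ k ∈ K, (w k : ℤ) ^ 2 = (t : ℤ) - 1) :
    C = q * t ∧ (κ = 1 ∨ κ = -1) ∧
      ((p : ℚ) * q * (1 + ((t : ℚ) - 1) * p)) *
        (1 + ∑ i ∈ I, (r i : ℚ) ^ 3 / (1 + ((t : ℚ) - 1) * p) + t * (κ : ℚ) ^ 3 / ((p : ℚ) - q)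
          + ∑ k ∈ K, (r k : ℚ) ^ 3 / ((p : ℚ) * (w k : ℚ)))
        = ((q : ℚ) * t) ^ 2 * ((q : ℚ) * ((t : ℚ) - 1)) := by
  classical
  have htZ : (2 : ℤ) ≤ t := by exact_mod_cast ht
  have hqZ : (q : ℤ) = 2 + a * t := by exact_mod_cast hq
  have hpZ : (p : ℤ) = t * q + 1 := by exact_mod_cast hp
  have haZ : (0 : ℤ) ≤ a := Int.natCast_nonneg a
  have hat : (0 : ℤ) ≤ (a : ℤ) * t := mul_nonneg haZ (by omega)
  have hq2 : (2 : ℤ) ≤ q := by omega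
  obtain ⟨c', hc'⟩ := hqC
  have hCZ : (C : ℤ) = q * c' := by exact_mod_cast hc'
  have hc'0 : (0 : ℤ) ≤ c' := Int.natCast_nonneg c'
  set S : ℤ := ∑ i ∈ I, r i ^ 2 with hS
  set R : ℤ := ∑ k ∈ K, r k ^ 2 with hR
  have hS0 : 0 ≤ S := Finset.sum_nonneg (fun i _ => sq_nonneg _)
  have hR0 : 0 ≤ R := Finset.sum_nonneg (fun i _ => sq_nonneg _)
  have hri : ∀ i ∈ I, r i ^ 2 ≤ (t : ℤ) ^ 2 := by
    intro i hi
    have h1 := abs_le.mp (hr i hi)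
    exact sq_le_sq' h1.1 h1.2
  have hSle : S ≤ a * (t : ℤ) ^ 2 := by
    calc S ≤ ∑ _i ∈ I, (t : ℤ) ^ 2 := Finset.sum_le_sum hri
      _ = a * (t : ℤ) ^ 2 := by rw [Finset.sum_const, hIcard, nsmul_eq_mul]
  have hκ2 : κ ^ 2 = 0 ∨ κ ^ 2 = 1 := by
    rcases hκ with h | h | h <;> rw [h] <;> norm_num
  have hκ2b : 0 ≤ κ ^ 2 ∧ κ ^ 2 ≤ 1 := by
    rcases hκ2 with h | h <;> rw [h] <;> norm_num
  have htκ : (0 : ℤ) ≤ t * κ ^ 2 := mul_nonneg (by omega) hκ2b.1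
  have htκ' : (t : ℤ) * κ ^ 2 ≤ t := by nlinarith [hκ2b.2]
  have hN : (1 + ((t : ℤ) - 1) * p) = t * (q * (t - 1) + 1) := by
    rw [hpZ]
    ring
  have E1' : (q : ℤ) * (c' : ℤ) ^ 2 = (t * (q * (t - 1) + 1)) + S + t * κ ^ 2 := by
    have h1 : (q : ℤ) * ((q : ℤ) * (c' : ℤ) ^ 2) = q * ((t * (q * (t - 1) + 1)) + S + t * κ ^ 2) := by
      rw [← hN, ← E1, hCZ]
      ring
    exact mul_left_cancel₀ (by omega) h1
  have E2' : (q : ℤ) * c' = 1 + S + t * κ ^ 2 + R := by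
    rw [← hCZ]
    exact E2
  have hc't : (c' : ℤ) = t := by
    rcases lt_trichotomy (c' : ℤ) t with hlt | heq | hgt
    · exfalso
      have h1 : (c' : ℤ) ≤ t - 1 := by omega
      have h2 : (c' : ℤ) ^ 2 ≤ ((t : ℤ) - 1) ^ 2 := pow_le_pow_left₀ hc'0 h1 2
      have h3 : (q : ℤ) * (c' : ℤ) ^ 2 ≤ q * ((t : ℤ) - 1) ^ 2 :=
        mul_le_mul_of_nonneg_left h2 (by omega)
      have h5 : (0 : ℤ) ≤ (q : ℤ) * ((t : ℤ) - 1) := mul_nonneg (by omega) (by omega)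
      have h6 : (q : ℤ) * ((t : ℤ) - 1) ^ 2 = (q * ((t : ℤ) - 1)) * t - q * ((t : ℤ) - 1) := by ring
      have h7 : (t : ℤ) * (q * (t - 1) + 1) = (q * ((t : ℤ) - 1)) * t + t := by ring
      rw [h6] at h3
      rw [h7] at E1'
      linarith
    · exact heq
    · exfalso
      have h1 : (t : ℤ) + 1 ≤ c' := by omega
      have h2 : (q : ℤ) * (c' : ℤ) ^ 2 - q * c' ≤ (t * (q * (t - 1) + 1)) - 1 := by linarith
      have h3 : ((t : ℤ) + 1) * t ≤ (c' : ℤ) * (c' - 1) :=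
        mul_le_mul h1 (by omega) (by omega) hc'0
      have h4 : (q : ℤ) * (((t : ℤ) + 1) * t) ≤ q * ((c' : ℤ) * (c' - 1)) :=
        mul_le_mul_of_nonneg_left h3 (by omega)
      have h5 : (2 : ℤ) * t ≤ (q : ℤ) * t := mul_le_mul_of_nonneg_right hq2 (by omega)
      have h6 : (q : ℤ) * (((t : ℤ) + 1) * t) = q * t * t + q * t := by ring
      have h7 : (q : ℤ) * ((c' : ℤ) * (c' - 1)) = q * (c' : ℤ) ^ 2 - q * c' := by ring
      have h8 : (t : ℤ) * (q * (t - 1) + 1) = q * t * t - q * t + t := by ring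
      rw [h6, h7] at h4
      rw [h8] at h2
      linarith
  have hCqt : C = q * t := by
    have h1 : c' = t := by exact_mod_cast hc't
    rw [hc', h1]
  -- S + t κ² = t + a t²
  have hSκ : S + t * κ ^ 2 = t + a * (t : ℤ) ^ 2 := by
    rw [hc't] at E1'
    have h1 : (q : ℤ) * (t : ℤ) ^ 2 - t * (q * (t - 1) + 1) = t + a * (t : ℤ) ^ 2 := by
      rw [hqZ]
      ring
    linarith
  have hκ1 : κ ^ 2 = 1 := by
    rcases hκ2 with h | h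
    · exfalso
      rw [h, mul_zero, add_zero] at hSκ
      omega
    · exact h
  have hκ' : κ = 1 ∨ κ = -1 := by
    rcases hκ with h | h | h
    · rw [h] at hκ1
      norm_num at hκ1
    · exact Or.inl h
    · exact Or.inr h
  have hSeq : S = a * (t : ℤ) ^ 2 := by
    rw [hκ1, mul_one] at hSκ
    linarith
  have hri2 : ∀ i ∈ I, r i ^ 2 = (t : ℤ) ^ 2 := by
    have h1 : ∑ i ∈ I, r i ^ 2 = ∑ _i ∈ I, (t : ℤ) ^ 2 := by
      rw [Finset.sum_const, hIcard, nsmul_eq_mul]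
      exact hSeq
    exact (Finset.sum_eq_sum_iff_of_le hri).mp h1
  -- R = t - 1
  have hRt : R = (t : ℤ) - 1 := by
    rw [hc't, hSeq, hκ1, mul_one] at E2'
    have h1 : (q : ℤ) * t = 2 * t + a * (t : ℤ) ^ 2 := by
      rw [hqZ]
      ring
    linarith
  -- Σ_K r w = t - 1
  set X : ℤ := ∑ k ∈ K, r k * (w k : ℤ) with hX
  have hXt : X = (t : ℤ) - 1 := by
    have h1 : ∑ i ∈ I, r i = -κ - 1 := by linarith
    rw [h1] at E3
    have h2 : (p : ℤ) * (X - ((t : ℤ) - 1)) = 0 := by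
      linear_combination (-1 : ℤ) * E3 - κ * hpZ
    rcases mul_eq_zero.mp h2 with h | h
    · exfalso
      have h3 : (0 : ℤ) ≤ (t : ℤ) * q := mul_nonneg (by omega) (by omega)
      omega
    · linarith
  have hrw : ∀ k ∈ K, r k = (w k : ℤ) := by
    have h1 : ∑ k ∈ K, (r k - (w k : ℤ)) ^ 2 = 0 := by
      have h2 : ∀ k ∈ K, (r k - (w k : ℤ)) ^ 2 = r k ^ 2 - 2 * (r k * (w k : ℤ)) + (w k : ℤ) ^ 2 := by
        intro k _
        ring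
      rw [Finset.sum_congr rfl h2, Finset.sum_add_distrib, Finset.sum_sub_distrib,
        ← Finset.mul_sum, E5, ← hX, hXt, ← hR, hRt]
      ring
    intro k hk
    have h2 := (Finset.sum_eq_zero_iff_of_nonneg (fun k _ => sq_nonneg (r k - (w k : ℤ)))).mp h1 k hk
    have h3 : r k - (w k : ℤ) = 0 := by
      exact pow_eq_zero_iff (by norm_num) |>.mp h2
    linarith
  refine ⟨hCqt, hκ', ?_⟩
  -- rational identity
  have htQ : (2 : ℚ) ≤ t := by exact_mod_cast ht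
  have hqQ2 : (2 : ℚ) ≤ q := by exact_mod_cast hq2
  have hpQ : (p : ℚ) = t * q + 1 := by exact_mod_cast hp
  have hpq_pos : (0 : ℚ) < (t : ℚ) * q + 1 - q := by nlinarith
  have hp_pos : (0 : ℚ) < (t : ℚ) * q + 1 := by nlinarith
  have hNq : (1 + ((t : ℚ) - 1) * p) = t * ((t : ℚ) * q + 1 - q) := by
    rw [hpQ]
    ring
  have hsumI : ∑ i ∈ I, (r i : ℚ) ^ 3 / (1 + ((t : ℚ) - 1) * p)
      = (t : ℚ) ^ 2 * (-(κ : ℚ) - 1) / (t * ((t : ℚ) * q + 1 - q)) := by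
    rw [← Finset.sum_div, hNq]
    congr 1
    have h1 : ∑ i ∈ I, r i ^ 3 = (t : ℤ) ^ 2 * (-κ - 1) := by
      have h2 : ∀ i ∈ I, r i ^ 3 = (t : ℤ) ^ 2 * r i := by
        intro i hi
        have h3 := hri2 i hi
        calc r i ^ 3 = r i ^ 2 * r i := by ring
          _ = (t : ℤ) ^ 2 * r i := by rw [h3]
      rw [Finset.sum_congr rfl h2, ← Finset.mul_sum]
      congr 1
      linarith
    have h4 : ((∑ i ∈ I, r i ^ 3 : ℤ) : ℚ) = (((t : ℤ) ^ 2 * (-κ - 1) : ℤ) : ℚ) := by rw [h1]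
    push_cast at h4
    exact h4
  have hsumK : ∑ k ∈ K, (r k : ℚ) ^ 3 / ((p : ℚ) * (w k : ℚ)) = ((t : ℚ) - 1) / ((t : ℚ) * q + 1) := by
    have h1 : ∀ k ∈ K, (r k : ℚ) ^ 3 / ((p : ℚ) * (w k : ℚ)) = ((w k : ℤ) : ℚ) ^ 2 / ((t : ℚ) * q + 1) := by
      intro k hk
      have hwk : ((w k : ℕ) : ℚ) ≠ 0 := by
        have := hw k hk
        have h2 : (1 : ℚ) ≤ (w k : ℚ) := by exact_mod_cast this
        linarith
      rw [hrw k hk, hpQ]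
      push_cast
      field_simp
    rw [Finset.sum_congr rfl h1, ← Finset.sum_div]
    congr 1
    have h4 : ((∑ k ∈ K, (w k : ℤ) ^ 2 : ℤ) : ℚ) = (((t : ℤ) - 1 : ℤ) : ℚ) := by rw [E5]
    push_cast at h4
    exact h4
  have hκ3 : (κ : ℚ) ^ 3 = κ := by
    rcases hκ' with h | h <;> rw [h] <;> norm_num
  rw [hsumI, hsumK, hκ3, hNq, hpQ]
  exact br_num_beta_cubic t q κ (by linarith) hpq_pos.ne' hp_pos.ne'

end Cfsg.Agent.Helper65
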