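-- helper65 library: PIECE S2 of CALL S0999 (helper9, Brauer-Reynolds): stage alpha, t = 2.
import Cfsg.Agent.Helper65.BRS2Core
import Cfsg.Agent.Helper75.BRT1
import Cfsg.Agent.Helper75.BRT3
import Cfsg.Agent.Helper75.BRT4

set_option autoImplicit false
open Cfsg
open scoped ComplexConjugate

universe u

namespace Cfsg.Agent.Helper65

theorem br_stage_alpha {G : Type u} [Group G] [Fintype G] {p : ℕ} [Fact p.Prime]
    {M : Ideal Cfsg.AlgInt} (hM : Cfsg.IsPModular p M)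
    (P : Sylow p G) (hP : Nat.card (P : Subgroup G) = p)
    (hC : Nat.card (Subgroup.centralizer ((P : Subgroup G) : Set G)) = p)
    (q t a : ℕ) (T : Cfsg.Agent.Helper9.BRTab p M P q) (ht : 2 ≤ t) (hqt : q * t = p - 1)
    (ha : 1 ≤ a) (hqa : q = 1 + a * t) (hε : T.ε = 1)
    (hX1 : ∀ χ ∈ T.X1, Cfsg.charDegree (χ : G → ℂ) = 1 + (t - 1) * p)
    (hX2 : ∀ χ ∈ T.X2, Cfsg.charDegree (χ : G → ℂ) = p - 1)
    (hY : ∀ θ ∈ T.Y, Cfsg.charDegree (θ : G → ℂ) = q) : t = 2 := by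
  have hqpos : 0 < q := by omega
  have hYne : T.Y.Nonempty := by
    rw [← Finset.card_pos, T.hcardY, ← hqt, Nat.mul_div_cancel_left t hqpos]
    omega
  exact br_stage_alpha_core P hP q t a T ht hqt ha hqa hε hX1 hX2 hY
    (fun y hy hy1 => Helper75.br_theta_sum hM T hYne y hy hy1)
    (fun χ hχ y hy hy1 => Helper75.br_vanish hM P hP hC χ hχ y hy hy1)
    (fun y hy hy1 => Helper75.br_block_sq_sum hM hP T y hy hy1)

end Cfsg.Agent.Helper65
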