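import Mathlib
import Cfsg.Prelude.Def_CaseTheorems
import Cfsg.Prelude.Def_OddOrderLocal
import Cfsg.Agent.Helper48.BkHCore
import Cfsg.Agent.Helper47.BkF
import Cfsg.Agent.Helper52.BkG

set_option autoImplicit false

namespace Cfsg.Agent.Helper65

/-- Piece H of the rank-two classification (maximal class lifts through a central subgroup of
order `3` of the last term of the lower central series): `Helper48.bkH_core` with its two
hypotheses discharged by `Helper47.bk_cube_81` and `Helper52.bk_comm_card`. -/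
theorem bk65_lift_maxclass {R : Type*} [Group R] [Finite R] (n : ℕ) (hn : Nat.card R = 3 ^ n)
    (hS : ∀ S : Subgroup R, (∀ s ∈ S, s ^ 3 = 1) → Nat.card S ≤ 3 ^ 2)
    (c : ℕ) (hc1 : 1 ≤ c) (hc : (⊤ : Subgroup R).lowerCentralSeries c ≠ ⊥)
    (hc' : (⊤ : Subgroup R).lowerCentralSeries (c + 1) = ⊥)
    (z : R) (hzL : z ∈ (⊤ : Subgroup R).lowerCentralSeries c) (hz3 : z ^ 3 = 1) (hz1 : z ≠ 1)
    [(Subgroup.zpowers z).Normal]
    (hQ : Group.nilpotencyClass (R ⧸ Subgroup.zpowers z) = n - 2) :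
    Group.nilpotencyClass R = n - 1 := by
  haveI : Fact (Nat.Prime 3) := ⟨Nat.prime_three⟩
  exact Cfsg.Agent.Helper48.bkH_core n hn
    (fun X _ _ hX h1 h2 => Cfsg.Agent.Helper47.bk_cube_81 hX h1 h2)
    (fun hR hcz hidx => Cfsg.Agent.Helper52.bk_comm_card hR hcz hidx)
    hS c hc1 hc hc' z hzL hz3 hz1 hQ

end Cfsg.Agent.Helper65
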