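import Mathlib
import Cfsg.Prelude.Def_OddOrderLocal
import Cfsg.Agent.Helper64.MetaCyc

set_option autoImplicit false

/-!
Piece D of S3888 (helper65): lifting metacyclicity through a central subgroup of order `p` lying in
the derived subgroup.  The argument is the inductive step of `Cfsg.Agent.Helper64.metacyc_main`
(seat helper64), which only uses the hypotheses below.
-/

namespace Cfsg.Agent.Helper65

open Cfsg.Agent.Helper64

/-- If `R / ⟨z⟩` is metacyclic, `z` a central element of order `p` in the derived subgroup of the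
`p`-group `R` (`p` odd), and the elements of order dividing `p` form a subgroup of order at most
`p ^ 2`, then `R` is metacyclic. -/
theorem bk_lift_metacyclic {R : Type*} [Group R] [Finite R] {p : ℕ} [Fact p.Prime] (hp2 : p ≠ 2)
    (hR : IsPGroup p R) (E : Subgroup R) (hE : ∀ g, g ∈ E ↔ g ^ p = 1)
    (hEcard : Nat.card E ≤ p ^ 2)
    (z : R) (hzcomm : z ∈ commutator R) (hzc : z ∈ Subgroup.center R) (hzp : z ^ p = 1)
    (hz1 : z ≠ 1) [(Subgroup.zpowers z).Normal]
    (hQ : Cfsg.IsMetacyclic (R ⧸ Subgroup.zpowers z)) : Cfsg.IsMetacyclic R := by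
  have hpp := (Fact.out : p.Prime)
  have hZcen : Subgroup.zpowers z ≤ Subgroup.center R := Subgroup.zpowers_le.mpr hzc
  have hZp : ∀ w ∈ Subgroup.zpowers z, w ^ p = 1 := by
    intro w hw
    obtain ⟨m, rfl⟩ := Subgroup.mem_zpowers_iff.mp hw
    rw [← zpow_natCast, ← zpow_mul, mul_comm, zpow_mul, zpow_natCast, hzp, one_zpow]
  obtain ⟨Nb, hNbn, hcyc1, hcyc2⟩ := hQ
  haveI := hNbn
  obtain ⟨⟨abar, habar⟩, hgen⟩ := hcyc1.exists_generator
  obtain ⟨a, rfl⟩ := QuotientGroup.mk_surjective abar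
  obtain ⟨bq, hbq⟩ := hcyc2.exists_generator
  obtain ⟨bz, rfl⟩ := QuotientGroup.mk_surjective bq
  obtain ⟨b, rfl⟩ := QuotientGroup.mk_surjective bz
  obtain ⟨S, hSdef⟩ : ∃ S : Subgroup R, S = Nb.comap (QuotientGroup.mk' (Subgroup.zpowers z)) :=
    ⟨_, rfl⟩
  haveI hSn : S.Normal := by rw [hSdef]; infer_instance
  have hSmem : ∀ s : R, s ∈ S ↔ (QuotientGroup.mk s : R ⧸ Subgroup.zpowers z) ∈ Nb := by
    intro s; rw [hSdef]; rfl
  have haS : a ∈ S := (hSmem a).mpr habar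
  have hSrep : ∀ s ∈ S, ∃ k : ℤ, ∃ w ∈ Subgroup.zpowers z, s = a ^ k * w := by
    intro s hs
    obtain ⟨k, hk⟩ := Subgroup.mem_zpowers_iff.mp (hgen ⟨QuotientGroup.mk s, (hSmem s).mp hs⟩)
    have hk' := congrArg Subtype.val hk
    rw [Subgroup.coe_zpow] at hk'
    have hk2 : (QuotientGroup.mk (a ^ k) : R ⧸ Subgroup.zpowers z) = QuotientGroup.mk s := by
      rw [QuotientGroup.mk_zpow]; exact hk'
    rw [QuotientGroup.eq] at hk2
    exact ⟨k, (a ^ k)⁻¹ * s, hk2, by group⟩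
  have hbrep : ∀ r : R, ∃ j : ℤ, ∃ s ∈ S, r = b ^ j * s := by
    intro r
    obtain ⟨j, hj⟩ := Subgroup.mem_zpowers_iff.mp
      (hbq (QuotientGroup.mk (QuotientGroup.mk r : R ⧸ Subgroup.zpowers z)))
    rw [← QuotientGroup.mk_zpow, ← QuotientGroup.mk_zpow, QuotientGroup.eq,
      ← QuotientGroup.mk_inv, ← QuotientGroup.mk_mul] at hj
    exact ⟨j, (b ^ j)⁻¹ * r, (hSmem _).mpr hj, by group⟩
  have hSc : ∀ s ∈ S, ∀ t ∈ S, s * t = t * s := by
    intro s hs t ht
    obtain ⟨k, w, hw, rfl⟩ := hSrep s hs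
    obtain ⟨l, w', hw', rfl⟩ := hSrep t ht
    have hwc : ∀ g : R, Commute g w := fun g => Subgroup.mem_center_iff.mp (hZcen hw) g
    have hwc' : ∀ g : R, Commute g w' := fun g => Subgroup.mem_center_iff.mp (hZcen hw') g
    exact ((((Commute.refl a).zpow_zpow k l).mul_right (hwc' _)).mul_left
      (((hwc _).symm).mul_right (hwc' _))).eq
  by_cases hza : z ∈ Subgroup.zpowers a
  · have hSle : S ≤ Subgroup.zpowers a := by
      intro s hs
      obtain ⟨k, w, hw, rfl⟩ := hSrep s hs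
      exact Subgroup.mul_mem _ (Subgroup.zpow_mem_zpowers a k)
        (Subgroup.zpowers_le.mpr hza hw)
    have haSle : Subgroup.zpowers a ≤ S := Subgroup.zpowers_le.mpr haS
    haveI hNn : (Subgroup.zpowers a).Normal := by
      constructor
      intro m hm r
      exact hSle (hSn.conj_mem m (haSle hm) r)
    refine ⟨Subgroup.zpowers a, hNn, inferInstance, ⟨⟨QuotientGroup.mk b, fun q => ?_⟩⟩⟩
    obtain ⟨r, rfl⟩ := QuotientGroup.mk_surjective q
    obtain ⟨j, s, hs, rfl⟩ := hbrep r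
    refine ⟨j, ?_⟩
    show (QuotientGroup.mk b : R ⧸ Subgroup.zpowers a) ^ j = QuotientGroup.mk (b ^ j * s)
    rw [← QuotientGroup.mk_zpow, QuotientGroup.eq]
    have h1 : (b ^ j)⁻¹ * (b ^ j * s) = s := by group
    rw [h1]
    exact hSle hs
  · have hD := metacyc_commutator_le S hSc a b haS (Subgroup.zpowers z) hZcen hSrep hbrep
    have hcS : a * b * a⁻¹ * b⁻¹ ∈ S := by
      have h1 : a * b * a⁻¹ * b⁻¹ = a * (b * a⁻¹ * b⁻¹) := by group
      rw [h1]
      exact S.mul_mem haS (hSn.conj_mem _ (S.inv_mem haS) b)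
    obtain ⟨i, w, hw, hcw⟩ := hSrep _ hcS
    obtain ⟨k, hk⟩ := (Submonoid.mem_powers_iff _ _).mp
      ((isOfFinOrder_of_finite (a * b * a⁻¹ * b⁻¹)).mem_powers_iff_mem_zpowers.mpr
        (hD hzcomm))
    have hpk : ¬ p ∣ k := by
      rintro ⟨k', rfl⟩
      apply hza
      have hwc : Commute (a ^ i) w := Subgroup.mem_center_iff.mp (hZcen hw) _
      have h1 : (a * b * a⁻¹ * b⁻¹) ^ p = (a ^ i) ^ p := by
        rw [hcw, hwc.mul_pow, hZp w hw, mul_one]
      rw [pow_mul, h1] at hk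
      rw [← hk]
      exact Subgroup.pow_mem _ (Subgroup.pow_mem _ (Subgroup.zpow_mem_zpowers a i) p) k'
    obtain ⟨e, he⟩ := (IsPGroup.iff_orderOf.mp hR) (a * b * a⁻¹ * b⁻¹)
    have hcop : (orderOf (a * b * a⁻¹ * b⁻¹)).Coprime k := by
      rw [he]
      exact Nat.Coprime.pow_left e ((Nat.Prime.coprime_iff_not_dvd hpp).mpr hpk)
    have h1 : Subgroup.zpowers ((a * b * a⁻¹ * b⁻¹) ^ k) =
        Subgroup.zpowers (a * b * a⁻¹ * b⁻¹) :=
      Subgroup.eq_of_le_of_card_ge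
        (Subgroup.zpowers_le.mpr (Subgroup.pow_mem _ (Subgroup.mem_zpowers _) k))
        (by rw [Nat.card_zpowers, Nat.card_zpowers, hcop.orderOf_pow])
    rw [hk] at h1
    rw [← h1] at hD
    exact metacyc_of_comm_le hp2 hR E hE hEcard z hzc hzp hz1 hD

end Cfsg.Agent.Helper65
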