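import Mathlib
import Cfsg.Agent.S0493
import Cfsg.Agent.S0495
import Cfsg.Agent.S0249
import Cfsg.Agent.S0445
import Cfsg.Agent.Helper95.AltOn

set_option autoImplicit false
set_option linter.style.haveILetI false

/-!
# Perfect groups of small order (helper65; base lemmas for S2553)

`perfect` means `commutator N = ⊤`.
-/

namespace Cfsg.Agent.Helper65

open scoped commutatorElement

/-- A perfect group has trivial image in every solvable group. -/
theorem g42_hom_trivial {N K : Type*} [Group N] [Group K] (hperf : commutator N = ⊤)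
    [Group.IsSolvable K] (f : N →* K) (n : N) : f n = 1 := by
  have h1 : ∀ k : ℕ, derivedSeries N k = ⊤ := by
    intro k
    induction k with
    | zero => rfl
    | succ k ih => rw [derivedSeries_succ, ih]; exact hperf
  obtain ⟨k, hk⟩ := (Group.isSolvable_def K).mp inferInstance
  have h2 := map_derivedSeries_le_derivedSeries f k
  rw [h1 k, hk] at h2
  have h3 : f n ∈ (⊤ : Subgroup N).map f := ⟨n, Subgroup.mem_top n, rfl⟩
  exact Subgroup.mem_bot.mp (h2 h3)

/-- A perfect finite group has no proper subgroup of index at most `4`. -/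
theorem g42_perfect_index {N : Type*} [Group N] [Finite N] (hperf : commutator N = ⊤)
    (S : Subgroup N) (h : S.index ≤ 4) : S = ⊤ := by
  classical
  haveI : Fintype (N ⧸ S) := Fintype.ofFinite _
  have hc : Fintype.card (N ⧸ S) ≤ 4 := by
    rw [← Nat.card_eq_fintype_card]
    exact h
  haveI := Cfsg.Agent.Helper95.perm_isSolvable_of_card_le_four (N ⧸ S) hc
  rw [eq_top_iff]
  intro n _
  have h1 := g42_hom_trivial hperf (MulAction.toPermHom N (N ⧸ S)) n
  have h2 : n • ((1 : N) : N ⧸ S) = ((1 : N) : N ⧸ S) := by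
    have := congrArg (fun e : Equiv.Perm (N ⧸ S) => e ((1 : N) : N ⧸ S)) h1
    simpa using this
  rw [MulAction.Quotient.smul_mk, smul_eq_mul, mul_one] at h2
  have h3 := QuotientGroup.eq.mp h2
  simpa using h3

/-- A quotient of a perfect group is perfect. -/
theorem g42_perfect_quot {N : Type*} [Group N] (hperf : commutator N = ⊤) (M : Subgroup N)
    [M.Normal] : commutator (N ⧸ M) = ⊤ := by
  have hs : (⊤ : Subgroup N).map (QuotientGroup.mk' M) = ⊤ := by
    rw [← MonoidHom.range_eq_map, MonoidHom.range_eq_top]
    exact QuotientGroup.mk'_surjective M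
  have h1 := Subgroup.map_commutator (⊤ : Subgroup N) ⊤ (QuotientGroup.mk' M)
  rw [hs, ← commutator_def, ← commutator_def, hperf, hs] at h1
  exact h1.symm

/-- A nontrivial perfect finite group has a simple quotient, of order `60` or more than `100`. -/
theorem g42_exists_quot {N : Type*} [Group N] [Finite N] (hperf : commutator N = ⊤)
    [Nontrivial N] : ∃ (M : Subgroup N) (_ : M.Normal), IsSimpleGroup (N ⧸ M) ∧
      (Nat.card (N ⧸ M) = 60 ∨ 100 < Nat.card (N ⧸ M)) := by
  classical
  -- a normal proper subgroup of maximal order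
  have hex : ∃ M : Subgroup N, M.Normal ∧ M ≠ ⊤ := ⟨⊥, inferInstance, bot_ne_top⟩
  obtain ⟨M, ⟨hMn, hMt⟩, hmax⟩ := Set.Finite.exists_maximalFor (fun M : Subgroup N => Nat.card M)
    {M : Subgroup N | M.Normal ∧ M ≠ ⊤} (Set.toFinite _) hex
  haveI := hMn
  have hsimple : IsSimpleGroup (N ⧸ M) := by
    haveI : Nontrivial (N ⧸ M) := by
      rw [QuotientGroup.nontrivial_iff]
      exact hMt
    refine ⟨fun K hK => ?_⟩
    haveI := hK
    by_cases hKt : K = ⊤
    · exact Or.inr hKt
    · left
      have h1 : (K.comap (QuotientGroup.mk' M)).Normal := inferInstance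
      have h2 : K.comap (QuotientGroup.mk' M) ≠ ⊤ := by
        intro h
        apply hKt
        rw [eq_top_iff]
        intro x _
        obtain ⟨n, rfl⟩ := QuotientGroup.mk'_surjective M x
        have : n ∈ K.comap (QuotientGroup.mk' M) := by rw [h]; exact Subgroup.mem_top n
        exact this
      have h3 : M ≤ K.comap (QuotientGroup.mk' M) := by
        intro m hm
        rw [Subgroup.mem_comap]
        have : (QuotientGroup.mk' M) m = 1 := (QuotientGroup.eq_one_iff m).mpr hm
        rw [this]
        exact K.one_mem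
      have h4 := hmax (j := K.comap (QuotientGroup.mk' M)) ⟨h1, h2⟩ (Subgroup.card_le_of_le h3)
      have h5 : K.comap (QuotientGroup.mk' M) = M := by
        symm
        exact Subgroup.eq_of_le_of_card_ge h3 h4
      rw [eq_bot_iff]
      intro x hx
      obtain ⟨n, rfl⟩ := QuotientGroup.mk'_surjective M x
      have : n ∈ K.comap (QuotientGroup.mk' M) := hx
      rw [h5] at this
      rw [Subgroup.mem_bot]
      exact (QuotientGroup.eq_one_iff n).mpr this
  refine ⟨M, hMn, hsimple, ?_⟩
  haveI := hsimple
  have hnc : ¬ IsCyclic (N ⧸ M) := by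
    intro hcyc
    have h1 : commutator (N ⧸ M) = ⊥ := by
      rw [commutator_def, Subgroup.commutator_eq_bot_iff_le_centralizer]
      intro x _ y _
      obtain ⟨g, hg⟩ := hcyc.exists_generator
      obtain ⟨a, rfl⟩ := Subgroup.mem_zpowers_iff.mp (hg x)
      obtain ⟨b, rfl⟩ := Subgroup.mem_zpowers_iff.mp (hg y)
      exact (Commute.refl g).zpow_zpow b a |>.eq
    rw [g42_perfect_quot hperf M] at h1
    exact top_ne_bot h1
  by_cases h : Nat.card (N ⧸ M) ≤ 100
  · exact Or.inl (Cfsg.Agent.S0493.result hnc h)
  · exact Or.inr (not_le.mp h)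

/-- A nontrivial perfect finite group has order at least `60`. -/
theorem g42_perfect_card {N : Type*} [Group N] [Finite N] (hperf : commutator N = ⊤)
    [Nontrivial N] : 60 ≤ Nat.card N := by
  obtain ⟨M, hMn, _, h⟩ := g42_exists_quot hperf
  have h1 : Nat.card (N ⧸ M) ≤ Nat.card N := Nat.card_le_card_of_surjective _
    (QuotientGroup.mk'_surjective M)
  rcases h with h | h <;> omega

theorem g42_simple_of_quot {N : Type*} [Group N] [Finite N] (M : Subgroup N) [M.Normal]
    (hs : IsSimpleGroup (N ⧸ M)) (hc : Nat.card (N ⧸ M) = Nat.card N) : IsSimpleGroup N := by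
  have h1 := Subgroup.card_eq_card_quotient_mul_card_subgroup M
  have h2 : Nat.card M = 1 := by
    have hpos : 0 < Nat.card N := Nat.card_pos
    rw [hc] at h1
    nlinarith [h1]
  have hinj : Function.Injective (QuotientGroup.mk' M) := by
    rw [← MonoidHom.ker_eq_bot_iff, QuotientGroup.ker_mk']
    exact Subgroup.card_eq_one.mp h2
  haveI := hs
  haveI : Nontrivial N := by
    rw [← Finite.one_lt_card_iff_nontrivial, ← hc, Finite.one_lt_card_iff_nontrivial]
    exact IsSimpleGroup.toNontrivial
  exact IsSimpleGroup.isSimpleGroup_of_surjective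
    (MulEquiv.ofBijective (QuotientGroup.mk' M) ⟨hinj, QuotientGroup.mk'_surjective M⟩).symm.toMonoidHom
    (MulEquiv.surjective _)

/-- A nontrivial perfect group of order at most `100` is simple of order `60`. -/
theorem g42_perfect_simple {N : Type*} [Group N] [Finite N] (hperf : commutator N = ⊤)
    [Nontrivial N] (h : Nat.card N ≤ 100) : IsSimpleGroup N ∧ Nat.card N = 60 := by
  obtain ⟨M, hMn, hs, hq⟩ := g42_exists_quot hperf
  have h1 := Subgroup.card_eq_card_quotient_mul_card_subgroup M
  have hMpos : 0 < Nat.card M := Nat.card_pos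
  have hq60 : Nat.card (N ⧸ M) = 60 := by
    rcases hq with hq | hq
    · exact hq
    · exfalso
      have : Nat.card (N ⧸ M) ≤ Nat.card N := by rw [h1]; exact Nat.le_mul_of_pos_right _ hMpos
      omega
  have hM1 : Nat.card M = 1 := by
    rw [hq60] at h1
    by_contra hne
    have : 2 ≤ Nat.card M := by omega
    omega
  have hc : Nat.card (N ⧸ M) = Nat.card N := by rw [h1, hM1, mul_one]
  exact ⟨g42_simple_of_quot M hs hc, by rw [← hc, hq60]⟩

/-- A nontrivial perfect group of order dividing `168` is simple of order `168`. -/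
theorem g42_perfect_168 {N : Type*} [Group N] [Finite N] (hperf : commutator N = ⊤)
    [Nontrivial N] (h : Nat.card N ∣ 168) : IsSimpleGroup N ∧ Nat.card N = 168 := by
  obtain ⟨M, hMn, hs, hq⟩ := g42_exists_quot hperf
  have h1 := Subgroup.card_eq_card_quotient_mul_card_subgroup M
  have hMpos : 0 < Nat.card M := Nat.card_pos
  have hdvd : Nat.card (N ⧸ M) ∣ 168 := (Dvd.intro _ h1.symm).trans h
  have hq168 : Nat.card (N ⧸ M) = 168 := by
    have hle := Nat.le_of_dvd (by norm_num) hdvd
    rcases hq with hq | hq
    · rw [hq] at hdvd; norm_num at hdvd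
    · generalize Nat.card (N ⧸ M) = q at *
      interval_cases q <;> first | rfl | (exfalso; revert hdvd; decide)
  have hle : Nat.card N ≤ 168 := Nat.le_of_dvd (by norm_num) h
  have hM1 : Nat.card M = 1 := by
    rw [hq168] at h1
    by_contra hne
    have : 2 ≤ Nat.card M := by omega
    nlinarith
  have hc : Nat.card (N ⧸ M) = Nat.card N := by rw [h1, hM1, mul_one]
  exact ⟨g42_simple_of_quot M hs hc, by rw [← hc, hq168]⟩

/-- Groups of order less than `60` are solvable. -/
theorem g42_solvable_of_card_lt {G : Type*} [Group G] [Finite G] (h : Nat.card G < 60) :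
    Group.IsSolvable G := by
  suffices H : ∀ n : ℕ, ∀ (G : Type _) [Group G] [Finite G], Nat.card G = n → n < 60 →
      Group.IsSolvable G from H _ G rfl h
  intro n
  induction n using Nat.strong_induction_on with
  | _ n ih =>
    intro G _ _ hn hlt
    by_cases htriv : Subsingleton G
    · infer_instance
    · haveI : Nontrivial G := not_subsingleton_iff_nontrivial.mp htriv
      have hne : commutator G ≠ ⊤ := by
        intro hperf
        have := g42_perfect_card hperf
        omega
      have hlt' : Nat.card (commutator G) < n := by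
        rw [← hn]
        by_contra hge
        exact hne (Subgroup.eq_top_of_le_card _ (not_lt.mp hge))
      haveI := ih _ hlt' (commutator G) rfl (hlt'.trans hlt)
      exact Group.isSolvable_of_ker_le_range (commutator G).subtype (Abelianization.of (G := G))
        (by rw [Abelianization.ker_of, Subgroup.range_subtype])

/-- Over the field with two elements, `GL_n = SL_n = PSL_n`. -/
theorem g42_gl_equiv_psl (n : ℕ) :
    Nonempty (GL (Fin n) (ZMod 2) ≃* Matrix.ProjectiveSpecialLinearGroup (Fin n) (ZMod 2)) := by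
  let f : GL (Fin n) (ZMod 2) →* Matrix.SpecialLinearGroup (Fin n) (ZMod 2) :=
    { toFun := fun g => ⟨g.val, by
        have h : IsUnit (Matrix.det g.val) := (Matrix.isUnit_iff_isUnit_det _).mp g.isUnit
        have h0 := h.ne_zero
        have key : ∀ d : ZMod 2, d ≠ 0 → d = 1 := by decide
        exact key _ h0⟩
      map_one' := rfl
      map_mul' := fun _ _ => rfl }
  have hf : Function.Bijective f := by
    constructor
    · intro g h hgh
      apply Units.ext
      exact congrArg Subtype.val hgh
    · intro s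
      refine ⟨Matrix.SpecialLinearGroup.toGL s, ?_⟩
      apply Subtype.ext
      rfl
  have hcenter : Subgroup.center (Matrix.SpecialLinearGroup (Fin n) (ZMod 2)) = ⊥ := by
    rw [eq_bot_iff]
    intro A hA
    rw [Subgroup.mem_bot]
    rcases Nat.eq_zero_or_pos n with rfl | hn
    · exact Subsingleton.elim _ _
    rw [Matrix.SpecialLinearGroup.mem_center_iff] at hA
    obtain ⟨r, hr, hrA⟩ := hA
    have key : ∀ d : ZMod 2, d ≠ 0 → d = 1 := by decide
    have hr1 : r = 1 := by
      apply key
      rintro rfl
      simp [zero_pow hn.ne'] at hr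
    apply Subtype.ext
    rw [← hrA, hr1]
    simp
  exact ⟨(MulEquiv.ofBijective f hf).trans
    ((QuotientGroup.quotientBot (G := Matrix.SpecialLinearGroup (Fin n) (ZMod 2))).symm.trans
      (QuotientGroup.quotientMulEquivOfEq hcenter.symm))⟩

/-- A simple group of order `168` is isomorphic to `GL₃(2)`. -/
theorem g42_simple168 {G : Type*} [Group G] [Finite G] [IsSimpleGroup G]
    (h : Nat.card G = 168) : Nonempty (G ≃* GL (Fin 3) (ZMod 2)) := by
  obtain ⟨e⟩ := g42_gl_equiv_psl 3
  haveI : IsSimpleGroup (Matrix.ProjectiveSpecialLinearGroup (Fin 3) (ZMod 2)) :=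
    Cfsg.Agent.S0249.result 3 le_rfl
  haveI : Nontrivial (GL (Fin 3) (ZMod 2)) := e.toEquiv.nontrivial
  haveI : IsSimpleGroup (GL (Fin 3) (ZMod 2)) :=
    IsSimpleGroup.isSimpleGroup_of_surjective e.symm.toMonoidHom e.symm.surjective
  have hc : Nat.card (GL (Fin 3) (ZMod 2)) = 168 := by
    rw [← Nat.card_congr Cfsg.Agent.S0445.slEquivGL]
    exact Cfsg.Agent.S0445.card_SL3
  haveI : Fact (Nat.Prime 7) := ⟨by norm_num⟩
  obtain ⟨e1⟩ := Cfsg.Agent.S0495.result h (F := ZMod 7) (ZMod.card 7)
  obtain ⟨e2⟩ := Cfsg.Agent.S0495.result hc (F := ZMod 7) (ZMod.card 7)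
  exact ⟨e1.trans e2.symm⟩

end Cfsg.Agent.Helper65
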