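import Mathlib
import Cfsg.Agent.Helper65.G42Base

set_option autoImplicit false
set_option linter.style.haveILetI false

/-!
# Minimal normal subgroups, perfect subgroups and their orbits (helper65, for S2553)
-/

namespace Cfsg.Agent.Helper65

open scoped commutatorElement

/-- `⁅N, N⁆ = N` makes the group `↥N` perfect. -/
theorem g42_perfect_sub {G : Type*} [Group G] (N : Subgroup G) (hperf : ⁅N, N⁆ = N) :
    commutator N = ⊤ := by
  apply Subgroup.map_injective N.subtype_injective
  have h1 : (⊤ : Subgroup N).map N.subtype = N := by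
    rw [← MonoidHom.range_eq_map, Subgroup.range_subtype]
  rw [commutator_def, Subgroup.map_commutator, h1, hperf]

/-- The image of a perfect subgroup is perfect. -/
theorem g42_perfect_map {G K : Type*} [Group G] [Group K] (f : G →* K) (N : Subgroup G)
    (hperf : ⁅N, N⁆ = N) : ⁅N.map f, N.map f⁆ = N.map f := by
  rw [← Subgroup.map_commutator, hperf]

/-- A perfect solvable subgroup is trivial. -/
theorem g42_perfect_solvable_bot {G : Type*} [Group G] (N : Subgroup G) (hperf : ⁅N, N⁆ = N)
    (hs : Group.IsSolvable N) : N = ⊥ := by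
  rw [eq_bot_iff]
  intro n hn
  have h1 := g42_hom_trivial (g42_perfect_sub N hperf) (MonoidHom.id N) ⟨n, hn⟩
  rw [Subgroup.mem_bot]
  exact congrArg Subtype.val h1

/-- Minimal normal subgroups inside a nontrivial normal subgroup. -/
theorem g42_exists_min_normal {G : Type*} [Group G] [Finite G] (K : Subgroup G) (hKn : K.Normal)
    (hK : K ≠ ⊥) :
    ∃ N : Subgroup G, N.Normal ∧ N ≠ ⊥ ∧ N ≤ K ∧
      ∀ N' : Subgroup G, N'.Normal → N' ≤ N → N' ≠ ⊥ → N' = N := by
  obtain ⟨N, ⟨hNn, hN1, hNK⟩, hmin⟩ := Set.Finite.exists_minimalFor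
    (fun M : Subgroup G => Nat.card M) {M : Subgroup G | M.Normal ∧ M ≠ ⊥ ∧ M ≤ K}
    (Set.toFinite _) ⟨K, hKn, hK, le_rfl⟩
  refine ⟨N, hNn, hN1, hNK, fun N' hN'n hle hne => ?_⟩
  have := hmin (j := N') ⟨hN'n, hne, hle.trans hNK⟩ (Subgroup.card_le_of_le hle)
  exact Subgroup.eq_of_le_of_card_ge hle this

/-- If `O_2 = O_{2'} = 1`, a minimal normal subgroup is perfect. -/
theorem g42_min_normal_perfect {G : Type*} [Group G] [Finite G]
    (h2 : ∀ K : Subgroup G, K.Normal → IsPGroup 2 K → K = ⊥)
    (hodd : ∀ K : Subgroup G, K.Normal → Odd (Nat.card K) → K = ⊥)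
    (N : Subgroup G) (hNn : N.Normal) (hN1 : N ≠ ⊥)
    (hmin : ∀ N' : Subgroup G, N'.Normal → N' ≤ N → N' ≠ ⊥ → N' = N) : ⁅N, N⁆ = N := by
  haveI := hNn
  by_contra hne
  have hle : ⁅N, N⁆ ≤ N := Subgroup.commutator_le_left N N
  have hbot : ⁅N, N⁆ = ⊥ := by
    by_contra hb
    exact hne (hmin _ inferInstance hle hb)
  rw [Subgroup.commutator_eq_bot_iff_le_centralizer] at hbot
  have hcomm : ∀ x ∈ N, ∀ y ∈ N, x * y = y * x := fun x hx y hy => (hbot hx y hy).symm
  by_cases hO : Odd (Nat.card N)
  · exact hN1 (hodd N hNn hO)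
  · have h2dvd : 2 ∣ Nat.card N := (Nat.not_odd_iff_even.mp hO).two_dvd
    haveI : Fact (Nat.Prime 2) := ⟨Nat.prime_two⟩
    obtain ⟨x, hx⟩ := exists_prime_orderOf_dvd_card' 2 h2dvd
    let K : Subgroup G :=
      { carrier := {y | y ∈ N ∧ y ^ 2 = 1}
        mul_mem' := by
          rintro a b ⟨ha, ha2⟩ ⟨hb, hb2⟩
          refine ⟨N.mul_mem ha hb, ?_⟩
          have hc : Commute a b := hcomm a ha b hb
          rw [hc.mul_pow, ha2, hb2, one_mul]
        one_mem' := ⟨N.one_mem, one_pow 2⟩
        inv_mem' := by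
          rintro a ⟨ha, ha2⟩
          exact ⟨N.inv_mem ha, by rw [inv_pow, ha2, inv_one]⟩ }
    have hKn : K.Normal := by
      refine ⟨fun n hn g => ?_⟩
      obtain ⟨h1, h2'⟩ := hn
      exact ⟨hNn.conj_mem n h1 g, by rw [conj_pow, h2', mul_one, mul_inv_cancel]⟩
    have hKp : IsPGroup 2 K := by
      intro k
      refine ⟨1, ?_⟩
      apply Subtype.ext
      have := k.2.2
      simpa using this
    have hK := h2 K hKn hKp
    have hxK : (x : G) ∈ K := by
      refine ⟨x.2, ?_⟩
      have h3 : x ^ 2 = 1 := by rw [← hx]; exact pow_orderOf_eq_one x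
      have := congrArg Subtype.val h3
      simpa using this
    rw [hK, Subgroup.mem_bot] at hxK
    have hx1 : x = 1 := Subtype.ext hxK
    rw [hx1, orderOf_one] at hx
    omega

/-- If `O_2 = O_{2'} = 1`, every solvable normal subgroup is trivial. -/
theorem g42_solvable_normal_bot {G : Type*} [Group G] [Finite G]
    (h2 : ∀ K : Subgroup G, K.Normal → IsPGroup 2 K → K = ⊥)
    (hodd : ∀ K : Subgroup G, K.Normal → Odd (Nat.card K) → K = ⊥)
    (K : Subgroup G) (hKn : K.Normal) (hKs : Group.IsSolvable K) : K = ⊥ := by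
  by_contra hK
  obtain ⟨N, hNn, hN1, hNK, hmin⟩ := g42_exists_min_normal K hKn hK
  have hperf := g42_min_normal_perfect h2 hodd N hNn hN1 hmin
  have hs : Group.IsSolvable N :=
    Group.isSolvable_of_isSolvable_injective (Subgroup.inclusion_injective hNK)
  exact hN1 (g42_perfect_solvable_bot N hperf hs)

/-- An even permutation moving at most three points has order dividing `3`. -/
theorem g42_pow_three_of_support {α : Type*} [Fintype α] [DecidableEq α] (π : Equiv.Perm α)
    (hs : Equiv.Perm.sign π = 1) (hc : π.support.card ≤ 3) : π ^ 3 = 1 := by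
  have h1 : π.support.card ≠ 1 := Equiv.Perm.card_support_ne_one π
  rcases Nat.lt_or_ge π.support.card 3 with h | h
  · rcases Nat.lt_or_ge π.support.card 2 with h' | h'
    · have h0 : π.support.card = 0 := by omega
      rw [Equiv.Perm.card_support_eq_zero] at h0
      rw [h0, one_pow]
    · have h2 : π.support.card = 2 := by omega
      rw [Equiv.Perm.card_support_eq_two] at h2
      rw [h2.sign_eq] at hs
      exact absurd hs (by decide)
  · have h3 : π.support.card = 3 := by omega
    rw [card_support_eq_three_iff] at h3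
    rw [← h3.orderOf]
    exact pow_orderOf_eq_one π

/-- A perfect subgroup has no orbits of size `2, 3, 4`. -/
theorem g42_orbit_card {G : Type*} [Group G] [Finite G] {α : Type*}
    (σ : G →* Equiv.Perm α) (N : Subgroup G) (hperf : ⁅N, N⁆ = N) (x : α)
    (hx : ∃ n ∈ N, σ n x ≠ x) : 5 ≤ (Set.range fun n : N => σ (n : G) x).ncard := by
  letI : MulAction N α := MulAction.compHom α (σ.comp N.subtype)
  by_contra hlt
  have h1 : (MulAction.stabilizer N x).index = (MulAction.orbit N x).ncard :=
    MulAction.index_stabilizer N x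
  have h2 : MulAction.orbit N x = Set.range fun n : N => σ (n : G) x := rfl
  have h3 : (MulAction.stabilizer N x).index ≤ 4 := by rw [h1, h2]; omega
  have h4 := g42_perfect_index (g42_perfect_sub N hperf) _ h3
  obtain ⟨n, hn, hnx⟩ := hx
  have h5 : (⟨n, hn⟩ : N) ∈ MulAction.stabilizer N x := by rw [h4]; exact Subgroup.mem_top _
  exact hnx (MulAction.mem_stabilizer_iff.mp h5)

/-- A perfect subgroup of a group acting on at most `9` points is transitive on its moved
points. -/
theorem g42_trans_moved {G : Type*} [Group G] [Finite G] {α : Type*} [Fintype α]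
    (hα : Fintype.card α ≤ 9) (σ : G →* Equiv.Perm α) (N : Subgroup G) (hperf : ⁅N, N⁆ = N)
    (x y : α) (hx : ∃ n ∈ N, σ n x ≠ x) (hy : ∃ n ∈ N, σ n y ≠ y) : ∃ n ∈ N, σ n x = y := by
  classical
  letI : MulAction N α := MulAction.compHom α (σ.comp N.subtype)
  have hxc := g42_orbit_card σ N hperf x hx
  have hyc := g42_orbit_card σ N hperf y hy
  have hox : MulAction.orbit N x = Set.range fun n : N => σ (n : G) x := rfl
  have hoy : MulAction.orbit N y = Set.range fun n : N => σ (n : G) y := rfl
  rw [← hox] at hxc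
  rw [← hoy] at hyc
  rcases MulAction.orbit.eq_or_disjoint (G := N) x y with h | h
  · have hy' : y ∈ MulAction.orbit N x := by rw [h]; exact MulAction.mem_orbit_self y
    obtain ⟨n, hn⟩ := hy'
    exact ⟨n, n.2, hn⟩
  · exfalso
    have h1 : (MulAction.orbit N x ∪ MulAction.orbit N y).ncard =
        (MulAction.orbit N x).ncard + (MulAction.orbit N y).ncard :=
      Set.ncard_union_eq h (Set.toFinite _) (Set.toFinite _)
    have h2 : (MulAction.orbit N x ∪ MulAction.orbit N y).ncard ≤ Nat.card α :=
      Set.ncard_le_card _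
    rw [Nat.card_eq_fintype_card] at h2
    omega

end Cfsg.Agent.Helper65
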