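import Mathlib
import Cfsg.Agent.Helper65.G42Perm
import Cfsg.Agent.Helper51.G42E
import Cfsg.Agent.Helper1.G42D
import Cfsg.Agent.Helper33.G42C

set_option autoImplicit false
set_option linter.style.haveILetI false

/-!
# Degree 8 (helper65, for S2553)
-/

namespace Cfsg.Agent.Helper65

open scoped commutatorElement Pointwise

/-- A Sylow `p`-subgroup has order `p` when `p` divides the group order exactly once. -/
theorem g42_sylow_card {G : Type*} [Group G] [Finite G] {p : ℕ} [Fact p.Prime] (P : Sylow p G)
    (hp : p ∣ Nat.card G) (hpp : ¬ p ^ 2 ∣ Nat.card G) : Nat.card P = p := by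
  obtain ⟨k, hk⟩ := P.2.exists_card_eq
  have h1 := P.dvd_card_of_dvd_card hp
  have h2 : Nat.card P ∣ Nat.card G := Subgroup.card_subgroup_dvd_card _
  rw [hk] at h1 h2 ⊢
  rcases k with _ | _ | k
  · rw [pow_zero, Nat.dvd_one] at h1
    exact absurd h1 (Nat.Prime.one_lt Fact.out).ne'
  · simp
  · exfalso
    exact hpp ((pow_dvd_pow p (by omega)).trans h2)

/-- A subgroup of prime order is commutative. -/
theorem g42_comm_of_prime_card {G : Type*} [Group G] (P : Subgroup G) {p : ℕ} [Fact p.Prime]
    (h : Nat.card P = p) : ∀ x ∈ P, ∀ y ∈ P, x * y = y * x := by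
  haveI : IsCyclic P := isCyclic_of_prime_card h
  obtain ⟨g, hg⟩ := IsCyclic.exists_generator (α := P)
  intro x hx y hy
  obtain ⟨a, ha⟩ := Subgroup.mem_zpowers_iff.mp (hg ⟨x, hx⟩)
  obtain ⟨b, hb⟩ := Subgroup.mem_zpowers_iff.mp (hg ⟨y, hy⟩)
  have h1 : (⟨x, hx⟩ : P) * ⟨y, hy⟩ = ⟨y, hy⟩ * ⟨x, hx⟩ := by
    rw [← ha, ← hb]
    exact ((Commute.refl g).zpow_zpow a b).eq
  exact congrArg Subtype.val h1

/-- A perfect transitive group of degree `8` containing a `5`-cycle has order divisible
by `7` (it is primitive, hence doubly transitive by Jordan's theorem). -/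
theorem g42_seven_dvd_of_five {α : Type*} [Fintype α] [DecidableEq α] (hα : Fintype.card α = 8)
    (L : Subgroup (Equiv.Perm α)) (hperf : ⁅L, L⁆ = L) (htr : ∀ x y : α, ∃ l ∈ L, l x = y)
    (c : Equiv.Perm α) (hc : c ∈ L) (hcyc : c.IsCycle) (hsupp : c.support.card = 5) :
    7 ∣ Nat.card L := by
  haveI : MulAction.IsPretransitive L α :=
    ⟨fun x y => by obtain ⟨l, hl, h⟩ := htr x y; exact ⟨⟨l, hl⟩, h⟩⟩
  have hcard : Nat.card α = 8 := by rw [Nat.card_eq_fintype_card, hα]
  have hprim : MulAction.IsPreprimitive L α := by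
    refine ⟨fun {B} hB => ?_⟩
    by_cases hsub : B.Subsingleton
    · exact Or.inl hsub
    · right
      rw [Set.not_subsingleton_iff] at hsub
      have hne : B.Nonempty := hsub.nonempty
      have h1 := hB.ncard_block_mul_ncard_orbit_eq hne
      rw [hcard] at h1
      have h2 : 1 < B.ncard := Set.one_lt_ncard_iff_nontrivial.mpr hsub
      have h3 : (MulAction.orbit L B).ncard ≤ 4 := by nlinarith
      have h4 : (MulAction.stabilizer L B).index ≤ 4 := by
        rw [MulAction.index_stabilizer L B]; exact h3
      have h5 := g42_perfect_index (g42_perfect_sub L hperf) _ h4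
      obtain ⟨b, hb⟩ := hne
      rw [Set.eq_univ_iff_forall]
      intro y
      obtain ⟨l, hl⟩ := MulAction.exists_smul_eq L b y
      have h6 : l ∈ MulAction.stabilizer L B := by rw [h5]; exact Subgroup.mem_top l
      rw [MulAction.mem_stabilizer_iff] at h6
      rw [← h6, ← hl]
      exact Set.smul_mem_smul_set hb
  have hs : ((c.support : Set α)ᶜ).ncard = 2 + 1 := by
    have h1 := Set.ncard_add_ncard_compl (c.support : Set α)
    rw [Set.ncard_coe_finset, hsupp, hcard] at h1
    omega
  have h2t : MulAction.IsMultiplyPretransitive L α 2 :=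
    hprim.is_two_pretransitive hs (by rw [hcard]; norm_num)
      (Equiv.Perm.isPretransitive_of_isCycle_mem hcyc hc)
  have hemb : Nat.card (Fin 2 ↪ α) = 56 := by
    rw [Nat.card_eq_fintype_card, Fintype.card_embedding_eq, hα, Fintype.card_fin]
    rfl
  haveI : Nonempty (Fin 2 ↪ α) := by
    rw [← Finite.card_pos_iff, hemb]; norm_num
  have h56 := @MulAction.index_stabilizer_of_transitive L (Fin 2 ↪ α) _ _
    (Classical.arbitrary (Fin 2 ↪ α)) h2t
  rw [hemb] at h56
  have h7 : (7 : ℕ) ∣ 56 := by norm_num
  rw [← h56] at h7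
  exact h7.trans (Subgroup.index_dvd_card _)

/-- No group of order `315` embeds in the alternating group of degree `8`. -/
theorem g42_no_315 {L : Type*} [Group L] [Finite L] {α : Type*} [Fintype α] [DecidableEq α]
    (hα : Fintype.card α = 8) (σ : L →* Equiv.Perm α) (hσ : Function.Injective σ)
    (hsign : ∀ g, Equiv.Perm.sign (σ g) = 1) (hcard : Nat.card L = 315) : False := by
  haveI : Fact (Nat.Prime 5) := ⟨by norm_num⟩
  haveI : Fact (Nat.Prime 7) := ⟨by norm_num⟩
  let Q : Sylow 5 L := default
  have hQc : Nat.card Q = 5 := g42_sylow_card Q (by rw [hcard]; norm_num) (by rw [hcard]; norm_num)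
  have hcyc : IsCyclic (Q : Subgroup L) := isCyclic_of_prime_card hQc
  have hQ : Subgroup.normalizer ((Q : Subgroup L) : Set L) ≤
      Subgroup.centralizer ((Q : Subgroup L) : Set L) := by
    have key := Subgroup.card_dvd_of_injective _
      (QuotientGroup.kerLift_injective (Q : Subgroup L).normalizerMonoidHom)
    rw [Subgroup.normalizerMonoidHom_ker, ← Subgroup.index, ← Subgroup.relIndex] at key
    rw [hcyc.card_mulAut, hQc] at key
    have h4 : Nat.totient 5 = 4 := by decide
    rw [h4] at key
    have hodd : ((Subgroup.centralizer ((Q : Subgroup L) : Set L)).relIndex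
        (Subgroup.normalizer ((Q : Subgroup L) : Set L))) ∣ 315 := by
      rw [← hcard]
      exact (Subgroup.relIndex_dvd_card _ _).trans (Subgroup.card_subgroup_dvd_card _)
    have h1 : (Subgroup.centralizer ((Q : Subgroup L) : Set L)).relIndex
        (Subgroup.normalizer ((Q : Subgroup L) : Set L)) = 1 := by
      have := Nat.dvd_gcd key hodd
      have hg : Nat.gcd 4 315 = 1 := by decide
      rw [hg] at this
      exact Nat.dvd_one.mp this
    exact Subgroup.relIndex_eq_one.mp h1
  have hcompl := MonoidHom.ker_transferSylow_isComplement' Q hQ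
  have hKcard := hcompl.card_mul_card
  rw [hQc, hcard] at hKcard
  have hK63 : Nat.card (MonoidHom.transferSylow Q hQ).ker = 63 := by omega
  -- the Sylow 7-subgroup of the kernel
  let P₁ : Sylow 7 (MonoidHom.transferSylow Q hQ).ker := default
  have hP₁c : Nat.card P₁ = 7 :=
    g42_sylow_card P₁ (by rw [hK63]; norm_num) (by rw [hK63]; norm_num)
  have hn7 : Nat.card (Sylow 7 (MonoidHom.transferSylow Q hQ).ker) = 1 := by
    have h1 := card_sylow_modEq_one 7 (MonoidHom.transferSylow Q hQ).ker
    have h2 := P₁.card_dvd_index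
    have h3 : (P₁ : Subgroup (MonoidHom.transferSylow Q hQ).ker).index = 9 := by
      have := (P₁ : Subgroup (MonoidHom.transferSylow Q hQ).ker).index_mul_card
      rw [hP₁c, hK63] at this
      omega
    rw [h3] at h2
    have hle := Nat.le_of_dvd (by norm_num) h2
    generalize Nat.card (Sylow 7 (MonoidHom.transferSylow Q hQ).ker) = m at *
    have h1' : m % 7 = 1 := h1
    interval_cases m <;> simp_all
  haveI : Subsingleton (Sylow 7 (MonoidHom.transferSylow Q hQ).ker) :=
    (Nat.card_eq_one_iff_unique.mp hn7).1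
  haveI hP₁n : (P₁ : Subgroup (MonoidHom.transferSylow Q hQ).ker).Normal :=
    Sylow.normal_of_subsingleton P₁
  haveI : (P₁ : Subgroup (MonoidHom.transferSylow Q hQ).ker).Characteristic :=
    Sylow.characteristic_of_normal P₁ hP₁n
  have hP₂n : ((P₁ : Subgroup (MonoidHom.transferSylow Q hQ).ker).map
      (MonoidHom.transferSylow Q hQ).ker.subtype).Normal := inferInstance
  have hP₂c : Nat.card ((P₁ : Subgroup (MonoidHom.transferSylow Q hQ).ker).map
      (MonoidHom.transferSylow Q hQ).ker.subtype) = 7 := by
    rw [Subgroup.card_map_of_injective (Subgroup.subtype_injective _)]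
    exact hP₁c
  have h21 := Cfsg.Agent.Helper33.g42_norm7 hα σ hσ hsign _ hP₂c
  rw [Subgroup.normalizer_eq_top, Subgroup.card_top, hcard] at h21
  norm_num at h21

theorem g42_arith (m : ℕ) (hm : m ∣ 960) (h7 : m % 7 = 1) (h8 : 8 ∣ m * 21) :
    m * 21 = 168 ∨ m * 21 = 1344 ∨ m * 21 = 2520 ∨ m * 21 = 20160 := by
  have h8m : 8 ∣ m := (by decide : Nat.Coprime 8 21).dvd_of_dvd_mul_right h8
  obtain ⟨k, rfl⟩ := h8m
  have hk : k ∣ 120 := Nat.dvd_of_mul_dvd_mul_left (by norm_num : 0 < 8) (by simpa using hm)
  have hle : k ≤ 120 := Nat.le_of_dvd (by norm_num) hk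
  interval_cases k <;> omega

/-- Degree `8`. -/
theorem g42_deg8 {G : Type*} [Group G] [Finite G] {α : Type*} [Fintype α] [DecidableEq α]
    (hα : Fintype.card α = 8) (σ : G →* Equiv.Perm α) (hσ : Function.Injective σ)
    (hsign : ∀ g, Equiv.Perm.sign (σ g) = 1)
    (N : Subgroup G) [N.Normal] (hperf : ⁅N, N⁆ = N) (hN : N ≠ ⊥)
    (htr : ∀ x y : α, ∃ n ∈ N, σ n x = y)
    (j : G →* GL (Fin 4) (ZMod 2)) (hj : Function.Injective j)
    (h2 : ∀ K : Subgroup G, K.Normal → IsPGroup 2 K → K = ⊥) :
    Nonempty (G ≃* alternatingGroup (Fin 8)) ∨ Nonempty (G ≃* GL (Fin 3) (ZMod 2)) := by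
  classical
  haveI : Nontrivial α := Fintype.one_lt_card_iff_nontrivial.mp (by omega)
  have hA : Nat.card (alternatingGroup α) = 20160 := by
    rw [nat_card_alternatingGroup, Nat.card_eq_fintype_card, hα]
    rfl
  have hrange : σ.range ≤ alternatingGroup α := by
    rintro _ ⟨g, rfl⟩
    exact Equiv.Perm.mem_alternatingGroup.mpr (hsign g)
  have hrc : Nat.card σ.range = Nat.card G :=
    (Nat.card_congr (MonoidHom.ofInjective hσ).toEquiv).symm
  have hGcard : Nat.card G ∣ 20160 := by
    rw [← hA, ← hrc]
    exact Subgroup.card_dvd_of_le hrange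
  have hNG : Nat.card N ∣ Nat.card G := Subgroup.card_subgroup_dvd_card N
  haveI : Nontrivial N := (Subgroup.nontrivial_iff_ne_bot N).mpr hN
  have hperfN : commutator N = ⊤ := g42_perfect_sub N hperf
  -- `8 ∣ |N|`
  have h8N : 8 ∣ Nat.card N := by
    letI : MulAction N α := MulAction.compHom α (σ.comp N.subtype)
    haveI : MulAction.IsPretransitive N α :=
      ⟨fun x y => by obtain ⟨n, hn, h⟩ := htr x y; exact ⟨⟨n, hn⟩, h⟩⟩
    have h := MulAction.index_stabilizer_of_transitive N (Classical.arbitrary α)
    rw [Nat.card_eq_fintype_card, hα] at h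
    rw [← h]
    exact Subgroup.index_dvd_card _
  haveI : Fact (Nat.Prime 5) := ⟨by norm_num⟩
  haveI : Fact (Nat.Prime 7) := ⟨by norm_num⟩
  -- `7 ∣ |N|`
  have h7N : 7 ∣ Nat.card N := by
    by_contra h7
    by_cases h5 : 5 ∣ Nat.card N
    · obtain ⟨n, hn⟩ := exists_prime_orderOf_dvd_card' 5 h5
      have hc5 : orderOf (σ (n : G)) = 5 := by
        rw [orderOf_injective σ hσ, Subgroup.orderOf_coe, hn]
      obtain ⟨k, hk⟩ := Equiv.Perm.cycleType_prime_order (σ := σ (n : G))
        (by rw [hc5]; norm_num)
      have hsum : (σ (n : G)).cycleType.sum ≤ 8 := by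
        rw [Equiv.Perm.sum_cycleType, ← hα]
        exact Finset.card_le_univ _
      rw [hk, hc5, Multiset.sum_replicate, smul_eq_mul] at hsum
      have hk0 : k = 0 := by omega
      subst hk0
      rw [hc5] at hk
      have hcyc : (σ (n : G)).IsCycle := by
        rw [← Equiv.Perm.card_cycleType_eq_one, hk]
        simp
      have hsupp : (σ (n : G)).support.card = 5 := by
        rw [← Equiv.Perm.sum_cycleType, hk]
        simp
      have h := g42_seven_dvd_of_five hα (N.map σ) (g42_perfect_map σ N hperf)
        (fun x y => by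
          obtain ⟨m, hm, h⟩ := htr x y
          exact ⟨σ m, Subgroup.mem_map_of_mem σ hm, h⟩)
        (σ (n : G)) (Subgroup.mem_map_of_mem σ n.2) hcyc hsupp
      rw [Subgroup.card_map_of_injective hσ] at h
      exact h7 h
    · have h576 : Nat.card N ∣ 576 := by
        have hd : Nat.card N ∣ 576 * 35 := hNG.trans hGcard
        have hcop : Nat.Coprime (Nat.card N) 35 := by
          have e35 : (35 : ℕ) = 5 * 7 := by norm_num
          rw [e35]
          apply Nat.Coprime.mul_right
          · exact ((Nat.Prime.coprime_iff_not_dvd (by norm_num)).mpr h5).symm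
          · exact ((Nat.Prime.coprime_iff_not_dvd (by norm_num)).mpr h7).symm
        exact hcop.dvd_of_dvd_mul_right hd
      have h := Cfsg.Agent.Helper1.g42_perfect23 (N.map j) (g42_perfect_map j N hperf)
        (by rw [Subgroup.card_map_of_injective hj]; exact h576)
      exact hN ((Subgroup.map_eq_bot_iff_of_injective N hj).mp h)
  -- a Sylow `7`-subgroup of `G`
  have h7G : 7 ∣ Nat.card G := h7N.trans hNG
  have h49 : ¬ 7 ^ 2 ∣ Nat.card G := fun h => by
    have := h.trans hGcard
    norm_num at this
  let P : Sylow 7 G := default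
  have hPc : Nat.card P = 7 := g42_sylow_card P h7G h49
  have hnorm := Cfsg.Agent.Helper33.g42_norm7 hα σ hσ hsign (P : Subgroup G) hPc
  have h7norm : 7 ∣ Nat.card (Subgroup.normalizer ((P : Subgroup G) : Set G)) := by
    have := Subgroup.card_dvd_of_le (Subgroup.le_normalizer (H := (P : Subgroup G)))
    rwa [hPc] at this
  have hcases : Nat.card (Subgroup.normalizer ((P : Subgroup G) : Set G)) = 7 ∨
      Nat.card (Subgroup.normalizer ((P : Subgroup G) : Set G)) = 21 := by
    have hle := Nat.le_of_dvd (by norm_num) hnorm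
    generalize Nat.card (Subgroup.normalizer ((P : Subgroup G) : Set G)) = m at *
    interval_cases m <;> simp_all
  rcases hcases with h7c | h21
  · exfalso
    have hPn : ((P : Subgroup G) : Subgroup G) = Subgroup.normalizer ((P : Subgroup G) : Set G) :=
      Subgroup.eq_of_le_of_card_ge Subgroup.le_normalizer (by rw [h7c, hPc])
    have hcomm := g42_comm_of_prime_card (P : Subgroup G) hPc
    have hP : Subgroup.normalizer ((P : Subgroup G) : Set G) ≤
        Subgroup.centralizer ((P : Subgroup G) : Set G) := by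
      rw [← hPn]
      intro x hx y hy
      exact hcomm y hy x hx
    have hcompl := MonoidHom.ker_transferSylow_isComplement' P hP
    have hKcard := hcompl.card_mul_card
    rw [hPc] at hKcard
    haveI : Group.IsSolvable (P : Subgroup G) :=
      Group.isSolvable_of_comm (fun a b => Subtype.ext (hcomm a a.2 b b.2))
    have hNK : N ≤ (MonoidHom.transferSylow P hP).ker := by
      intro n hn
      rw [MonoidHom.mem_ker]
      exact g42_hom_trivial hperfN ((MonoidHom.transferSylow P hP).comp N.subtype) ⟨n, hn⟩
    obtain ⟨a, ha⟩ := h7N.trans (Subgroup.card_dvd_of_le hNK)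
    apply h49
    rw [← hKcard, ha]
    exact ⟨a, by ring⟩
  · -- `|N_G(P)| = 21`
    have hn7 := Sylow.card_eq_index_normalizer P
    have hmod := card_sylow_modEq_one 7 G
    have hmul := (Subgroup.normalizer ((P : Subgroup G) : Set G)).index_mul_card
    rw [h21] at hmul
    rw [hn7] at hmod
    have h8G : 8 ∣ Nat.card G := h8N.trans hNG
    have hGcases : Nat.card G = 168 ∨ Nat.card G = 1344 ∨ Nat.card G = 2520 ∨
        Nat.card G = 20160 := by
      rw [← hmul] at hGcard h8G ⊢
      generalize (Subgroup.normalizer ((P : Subgroup G) : Set G)).index = m at *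
      have hm : m ∣ 960 := Nat.dvd_of_mul_dvd_mul_right (by norm_num : 0 < 21) (by simpa using hGcard)
      exact g42_arith m hm hmod h8G
    rcases hGcases with h | h | h | h
    · -- order 168
      right
      obtain ⟨_, hNc⟩ := g42_perfect_168 hperfN (by rw [← h]; exact hNG)
      have hNtop : N = ⊤ := Subgroup.eq_top_of_card_eq N (by rw [hNc, h])
      have hperfG : commutator G = ⊤ := by
        rw [commutator_def]
        rw [hNtop] at hperf
        exact hperf
      haveI : Nontrivial G := by
        rw [← Finite.one_lt_card_iff_nontrivial, h]; norm_num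
      obtain ⟨hs, _⟩ := g42_perfect_168 hperfG (by rw [h])
      haveI := hs
      exact g42_simple168 h
    · -- order 1344
      exfalso
      obtain ⟨K', hK'le, hK'ne, hK'n, hK'2⟩ := Cfsg.Agent.Helper51.g42_card1344 j.range
        (by rw [← h]; exact (Nat.card_congr (MonoidHom.ofInjective hj).toEquiv).symm)
      have hKn : (K'.comap j).Normal := by
        refine ⟨fun k hk g => ?_⟩
        rw [Subgroup.mem_comap] at hk ⊢
        rw [map_mul, map_mul, map_inv]
        exact hK'n (j g) ⟨g, rfl⟩ (j k) hk
      have hKp : IsPGroup 2 (K'.comap j) := by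
        intro k
        refine ⟨1, ?_⟩
        apply Subtype.ext
        apply hj
        have := hK'2 (j (k : G)) k.2
        simpa using this
      have hK := h2 _ hKn hKp
      apply hK'ne
      rw [eq_bot_iff]
      intro x hx
      obtain ⟨g, rfl⟩ := hK'le hx
      have hg : g ∈ K'.comap j := hx
      rw [hK, Subgroup.mem_bot] at hg
      rw [hg, map_one]
      exact Subgroup.one_mem _
    · -- order 2520
      exfalso
      letI : MulAction G α := MulAction.compHom α σ
      haveI : MulAction.IsPretransitive G α :=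
        ⟨fun x y => by obtain ⟨n, _, h⟩ := htr x y; exact ⟨n, h⟩⟩
      have x : α := Classical.arbitrary α
      have hidx := MulAction.index_stabilizer_of_transitive G x
      rw [Nat.card_eq_fintype_card, hα] at hidx
      have hmul' := (MulAction.stabilizer G x).index_mul_card
      rw [hidx, h] at hmul'
      have h315 : Nat.card (MulAction.stabilizer G x) = 315 := by omega
      exact g42_no_315 hα (σ.comp (MulAction.stabilizer G x).subtype)
        (hσ.comp (Subgroup.subtype_injective _)) (fun g => hsign _) h315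
    · -- order 20160
      left
      have heq : σ.range = alternatingGroup α :=
        Subgroup.eq_of_le_of_card_ge hrange (by rw [hA, hrc, h])
      exact ⟨(MonoidHom.ofInjective hσ).trans ((MulEquiv.subgroupCongr heq).trans
        (Equiv.altCongrHom (Fintype.equivFinOfCardEq hα)))⟩

end Cfsg.Agent.Helper65
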