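import Mathlib
import Cfsg.Agent.Helper65.G42Deg8
import Cfsg.Agent.Helper52.G42A5
import Cfsg.Agent.Helper52.G42A6
import Cfsg.Agent.Helper95.G42B7

set_option autoImplicit false
set_option linter.style.haveILetI false

/-!
# Subgroups of `A₈` (inside `GL₄(2)`) with `O_2 = O_{2'} = 1` (helper65, for S2553)
-/

namespace Cfsg.Agent.Helper65

open scoped commutatorElement

theorem g42_main {G : Type*} [Group G] [Finite G]
    (ρ : G →* Equiv.Perm (Fin 8)) (hρ : Function.Injective ρ)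
    (hsign : ∀ g, Equiv.Perm.sign (ρ g) = 1)
    (j : G →* GL (Fin 4) (ZMod 2)) (hj : Function.Injective j)
    (hne : Nontrivial G)
    (h2 : ∀ K : Subgroup G, K.Normal → IsPGroup 2 K → K = ⊥)
    (hodd : ∀ K : Subgroup G, K.Normal → Odd (Nat.card K) → K = ⊥) :
    (∃ n : ℕ, 5 ≤ n ∧ n ≤ 8 ∧ Nonempty (G ≃* alternatingGroup (Fin n))) ∨
    Nonempty (G ≃* Equiv.Perm (Fin 5)) ∨ Nonempty (G ≃* Equiv.Perm (Fin 6)) ∨
    Nonempty (G ≃* GL (Fin 3) (ZMod 2)) := by
  classical
  obtain ⟨N, hNn, hN1, -, hmin⟩ :=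
    g42_exists_min_normal (⊤ : Subgroup G) inferInstance top_ne_bot
  have hperf := g42_min_normal_perfect h2 hodd N hNn hN1 hmin
  haveI := hNn
  have hsol := g42_solvable_normal_bot h2 hodd
  -- the moved points
  let Δ : Set (Fin 8) := {x | ∃ n ∈ N, ρ n x ≠ x}
  have hinv : ∀ g : G, ∀ x, ρ g x ∈ Δ ↔ x ∈ Δ := by
    intro g x
    constructor
    · rintro ⟨n, hn, hnx⟩
      refine ⟨g⁻¹ * n * g, ?_, ?_⟩
      · have := hNn.conj_mem n hn g⁻¹
        simpa using this
      · intro h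
        apply hnx
        have h1 : ρ g (ρ (g⁻¹ * n * g) x) = ρ g x := by rw [h]
        simpa [map_mul, Equiv.Perm.mul_apply] using h1
    · rintro ⟨n, hn, hnx⟩
      refine ⟨g * n * g⁻¹, hNn.conj_mem n hn g, ?_⟩
      intro h
      apply hnx
      have h1 : ρ (g * n * g⁻¹) (ρ g x) = ρ g (ρ n x) := by
        simp [map_mul, Equiv.Perm.mul_apply]
      rw [h1] at h
      exact (ρ g).injective h
  have htrans : ∀ x ∈ Δ, ∀ y ∈ Δ, ∃ n ∈ N, ρ n x = y := fun x hx y hy =>
    g42_trans_moved (by simp) ρ N hperf x y hx hy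
  have h8 : Δ.ncard + Δᶜ.ncard = 8 := by
    have := Set.ncard_add_ncard_compl Δ
    simpa using this
  have hΔ5 : 5 ≤ Δ.ncard := by
    obtain ⟨n, hn, hn1⟩ : ∃ n ∈ N, n ≠ 1 := by
      by_contra hcon
      push Not at hcon
      exact hN1 (eq_bot_iff.mpr fun n hn => Subgroup.mem_bot.mpr (hcon n hn))
    have hρn : ρ n ≠ 1 := fun h => hn1 (hρ (by rw [h, map_one]))
    obtain ⟨x, hx⟩ : ∃ x, ρ n x ≠ x := by
      by_contra hcon
      push Not at hcon
      exact hρn (Equiv.ext hcon)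
    have hxΔ : x ∈ Δ := ⟨n, hn, hx⟩
    have h5 := g42_orbit_card ρ N hperf x ⟨n, hn, hx⟩
    refine h5.trans (Set.ncard_le_ncard ?_ (Set.toFinite _))
    rintro _ ⟨m, rfl⟩
    exact (hinv (m : G) x).mpr hxΔ
  -- the kernel on `Δ`
  let K : Subgroup G :=
    { carrier := {g | ∀ x ∈ Δ, ρ g x = x}
      mul_mem' := by
        intro a b ha hb x hx
        rw [map_mul, Equiv.Perm.mul_apply, hb x hx, ha x hx]
      one_mem' := by
        intro x _
        rw [map_one, Equiv.Perm.one_apply]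
      inv_mem' := by
        intro a ha x hx
        rw [map_inv, Equiv.Perm.inv_eq_iff_eq, ha x hx] }
  have hKn : K.Normal := by
    refine ⟨fun k hk g x hx => ?_⟩
    have h1 : ρ g⁻¹ x ∈ Δ := (hinv g⁻¹ x).mpr hx
    have h2' := hk _ h1
    show ρ (g * k * g⁻¹) x = x
    rw [map_mul, map_mul, Equiv.Perm.mul_apply, Equiv.Perm.mul_apply, h2']
    simp
  have hK3 : IsPGroup 3 K := by
    intro k
    refine ⟨1, ?_⟩
    apply Subtype.ext
    apply hρ
    have hsupp : (ρ (k : G)).support.card ≤ 3 := by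
      have hsub : ((ρ (k : G)).support : Set (Fin 8)) ⊆ Δᶜ := fun x hx hxΔ =>
        (Equiv.Perm.mem_support.mp hx) (k.2 x hxΔ)
      have := Set.ncard_le_ncard hsub (Set.toFinite _)
      rw [Set.ncard_coe_finset] at this
      omega
    have := g42_pow_three_of_support _ (hsign (k : G)) hsupp
    simpa using this
  have hKbot : K = ⊥ := hodd K hKn (by
    obtain ⟨n, hn⟩ := hK3.exists_card_eq
    rw [hn]
    exact Odd.pow (by decide))
  -- the restricted action
  letI : DecidablePred (fun x => x ∈ Δ) := fun _ => Classical.propDecidable _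
  letI : Fintype Δ := Subtype.fintype (fun x => x ∈ Δ)
  let τ : G →* Equiv.Perm Δ :=
    { toFun := fun g => (ρ g).subtypePerm (hinv g)
      map_one' := by
        ext x
        simp
      map_mul' := by
        intro a b
        apply Equiv.ext
        intro x
        apply Subtype.ext
        show ρ (a * b) (x : Fin 8) = ρ a (ρ b (x : Fin 8))
        rw [map_mul, Equiv.Perm.mul_apply] }
  have hτ : Function.Injective τ := by
    rw [injective_iff_map_eq_one]
    intro g hg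
    have hgK : g ∈ K := fun x hx => by
      have := congrArg (fun e : Equiv.Perm Δ => ((e ⟨x, hx⟩ : Δ) : Fin 8)) hg
      simpa [τ] using this
    rw [hKbot] at hgK
    exact Subgroup.mem_bot.mp hgK
  have hτtr : ∀ x y : Δ, ∃ n ∈ N, τ n x = y := fun x y => by
    obtain ⟨n, hn, h⟩ := htrans x x.2 y y.2
    exact ⟨n, hn, Subtype.ext h⟩
  have hcardΔ : Fintype.card Δ = Δ.ncard := by
    rw [← Nat.card_eq_fintype_card]
    rfl
  have hsignτ : 7 ≤ Δ.ncard → ∀ g, Equiv.Perm.sign (τ g) = 1 := by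
    intro h7 g
    have h1 : Equiv.Perm.sign (τ g) = Equiv.Perm.sign (ρ g) := by
      refine Equiv.Perm.sign_subtypePerm (ρ g) (hinv g) (fun x hx => ?_)
      by_contra hxΔ
      have hgx : ρ g x ∉ Δ := fun h => hxΔ ((hinv g x).mp h)
      have hsub : Δᶜ.ncard ≤ 1 := by omega
      exact hx ((Set.ncard_le_one (Set.toFinite _)).mp hsub (ρ g x) hgx x hxΔ)
    rw [h1]
    exact hsign g
  have hd : Δ.ncard = 5 ∨ Δ.ncard = 6 ∨ Δ.ncard = 7 ∨ Δ.ncard = 8 := by omega
  rcases hd with h | h | h | h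
  · rcases Cfsg.Agent.Helper52.g42_deg5 (by rw [hcardΔ, h]) τ hτ N hperf hN1 with r | r
    · exact Or.inl ⟨5, le_rfl, by norm_num, r⟩
    · exact Or.inr (Or.inl r)
  · rcases Cfsg.Agent.Helper52.g42_deg6 (by rw [hcardΔ, h]) τ hτ N hperf hN1 hsol with r | r | r | r
    · exact Or.inl ⟨5, le_rfl, by norm_num, r⟩
    · exact Or.inr (Or.inl r)
    · exact Or.inl ⟨6, by norm_num, by norm_num, r⟩
    · exact Or.inr (Or.inr (Or.inl r))
  · have hns : ¬ Group.IsSolvable G := fun hs =>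
      hN1 (g42_perfect_solvable_bot N hperf
        (Group.isSolvable_of_isSolvable_injective N.subtype_injective))
    rcases Cfsg.Agent.Helper95.g42_deg7 (by rw [hcardΔ, h]) τ hτ (hsignτ (by omega))
      (fun x y => by obtain ⟨n, _, hn⟩ := hτtr x y; exact ⟨n, hn⟩) hns with r | r
    · exact Or.inl ⟨7, by norm_num, by norm_num, r⟩
    · exact Or.inr (Or.inr (Or.inr r))
  · rcases g42_deg8 (by rw [hcardΔ, h]) τ hτ (hsignτ (by omega)) N hperf hN1 hτtr j hj h2
      with r | r
    · exact Or.inl ⟨8, by norm_num, le_rfl, r⟩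
    · exact Or.inr (Or.inr (Or.inr r))

end Cfsg.Agent.Helper65
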