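-- helper65 library: PIECE H7 of CALL S3620 (helper32): cosets of a core-free maximal subgroup.
import Mathlib
import Cfsg.Agent.Helper32.JorDefs

set_option autoImplicit false

namespace Cfsg.Agent.Helper65.JorH7

open Equiv Cfsg.Agent.Helper32.Jor

/-- PIECE H7 (pure Mathlib). The action of `G` on the cosets of a core-free maximal subgroup is
faithful and primitive. -/
theorem quotient_faithful_primitive {G : Type*} [Group G] (M : Subgroup G) (hM : IsCoatom M)
    (hcore : M.normalCore = ⊥) :
    FaithfulSMul G (G ⧸ M) ∧ MulAction.IsPreprimitive G (G ⧸ M) := by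
  constructor
  · refine ⟨fun {g g'} h => ?_⟩
    have h1 : g'⁻¹ * g ∈ (MulAction.toPermHom G (G ⧸ M)).ker := by
      rw [MonoidHom.mem_ker]
      ext q
      rw [MulAction.toPermHom_apply, MulAction.toPerm_apply, mul_smul, h q, inv_smul_smul]
      rfl
    rw [← Subgroup.normalCore_eq_ker, hcore, Subgroup.mem_bot] at h1
    exact (inv_mul_eq_one.mp h1).symm
  · obtain ⟨g, hg⟩ : ∃ g : G, g ∉ M := by
      by_contra hcon
      apply hM.1
      rw [eq_top_iff]
      intro g _
      by_contra hg
      exact hcon ⟨g, hg⟩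
    have hne : ((g : G) : G ⧸ M) ≠ ((1 : G) : G ⧸ M) := by
      intro h
      rw [QuotientGroup.eq] at h
      apply hg
      have h2 : g⁻¹ ∈ M := by simpa using h
      exact (Subgroup.inv_mem_iff M).mp h2
    have : Nontrivial (G ⧸ M) := nontrivial_of_ne _ _ hne
    rw [← MulAction.isCoatom_stabilizer_iff_preprimitive (G := G) ((1 : G) : G ⧸ M),
      MulAction.stabilizer_quotient]
    exact hM

end Cfsg.Agent.Helper65.JorH7
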