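import Mathlib
import Cfsg.Agent.Helper90.MDDefs

/-!
# CALL S2332, piece IHAPP: applying the induction hypothesis to the relative module

A finite group acting non-trivially on a finite-dimensional complex space has an irreducible
non-trivial constituent (Maschke), so a lower bound for the dimensions of the non-trivial
irreducible representations bounds every non-trivial representation.
-/

set_option autoImplicit false

namespace Cfsg.Agent.Helper65

open Cfsg.Agent.Helper90.MD

/-- A lower bound `b` for the dimensions of the non-trivial irreducible representations (in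
`Type`) of a finite group is a lower bound for all non-trivial representations. -/
theorem md_ih_aux {Γ : Type*} [Group Γ] [Finite Γ] (b : ℕ)
    (IH : ∀ (W : Type) [AddCommGroup W] [Module ℂ W] [FiniteDimensional ℂ W]
      (σ : Representation ℂ Γ W), σ.IsIrreducible → (∃ γ, σ γ ≠ 1) → b ≤ Module.finrank ℂ W) :
    ∀ (n : ℕ) (W : Type) [AddCommGroup W] [Module ℂ W] [FiniteDimensional ℂ W]
      (σ : Representation ℂ Γ W), Module.finrank ℂ W = n → (∃ γ, σ γ ≠ 1) →
      b ≤ Module.finrank ℂ W := by
  have : NeZero (Nat.card Γ : ℂ) := ⟨Nat.cast_ne_zero.mpr Nat.card_pos.ne'⟩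
  intro n
  induction n using Nat.strong_induction_on with
  | _ n ih =>
    intro W _ _ _ σ hn hnt
    by_cases hirr : σ.IsIrreducible
    · exact IH W σ hirr hnt
    obtain ⟨γ, hγ⟩ := hnt
    -- `W` is nontrivial
    have hWnt : Nontrivial W := by
      by_contra hW
      rw [not_nontrivial_iff_subsingleton] at hW
      exact hγ (LinearMap.ext fun v => Subsingleton.elim _ _)
    have hbt : (⊥ : Subrepresentation σ) ≠ ⊤ := by
      intro h
      have h2 : (⊥ : Submodule ℂ W) = ⊤ := congrArg Subrepresentation.toSubmodule h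
      exact bot_ne_top h2
    -- a proper nonzero subrepresentation
    have hex : ∃ U : Subrepresentation σ, U ≠ ⊥ ∧ U ≠ ⊤ := by
      by_contra hcon
      push Not at hcon
      apply hirr
      have : Nontrivial (Subrepresentation σ) := ⟨⟨⊥, ⊤, hbt⟩⟩
      exact ⟨fun U => by
        by_cases hU : U = ⊥
        · exact Or.inl hU
        · exact Or.inr (hcon U hU)⟩
    obtain ⟨U, hU0, hU1⟩ := hex
    obtain ⟨U', hUU'⟩ := exists_isCompl U
    have hU'1 : U' ≠ ⊤ := by
      intro h
      rw [h] at hUU'
      exact hU0 (by simpa using hUU'.inf_eq_bot)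
    have hsub1 : U.toSubmodule ≠ ⊤ := fun h => hU1 (Subrepresentation.toSubmodule_injective h)
    have hsub2 : U'.toSubmodule ≠ ⊤ := fun h => hU'1 (Subrepresentation.toSubmodule_injective h)
    have hlt1 : Module.finrank ℂ U.toSubmodule < n := by
      rw [← hn]; exact Submodule.finrank_lt hsub1
    have hlt2 : Module.finrank ℂ U'.toSubmodule < n := by
      rw [← hn]; exact Submodule.finrank_lt hsub2
    by_cases h1 : U.toRepresentation γ = 1
    · by_cases h2 : U'.toRepresentation γ = 1
      · exfalso
        apply hγ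
        have hsup : U.toSubmodule ⊔ U'.toSubmodule = ⊤ := by
          have := hUU'.sup_eq_top
          exact congrArg Subrepresentation.toSubmodule this
        have hfix1 : ∀ v ∈ U.toSubmodule, σ γ v = v := by
          intro v hv
          have := congrArg (fun f => ((f ⟨v, hv⟩ : U.toSubmodule) : W)) h1
          simpa [Subrepresentation.toRepresentation] using this
        have hfix2 : ∀ v ∈ U'.toSubmodule, σ γ v = v := by
          intro v hv
          have := congrArg (fun f => ((f ⟨v, hv⟩ : U'.toSubmodule) : W)) h2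
          simpa [Subrepresentation.toRepresentation] using this
        apply LinearMap.ext
        intro v
        have hv : v ∈ U.toSubmodule ⊔ U'.toSubmodule := by rw [hsup]; trivial
        obtain ⟨u, hu, u', hu', rfl⟩ := Submodule.mem_sup.mp hv
        rw [map_add, hfix1 u hu, hfix2 u' hu']
        rfl
      · exact (ih _ hlt2 U'.toSubmodule U'.toRepresentation rfl ⟨γ, h2⟩).trans
          (Submodule.finrank_le _)
    · exact (ih _ hlt1 U.toSubmodule U.toRepresentation rfl ⟨γ, h1⟩).trans
        (Submodule.finrank_le _)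

theorem ih_app {G : Type*} [Group G] {V : Type} [AddCommGroup V] [Module ℂ V]
    [FiniteDimensional ℂ V] (ρ : Representation ℂ G V) (N : Subgroup G) (P : V →ₗ[ℂ] V)
    (hP : IsProjFor ρ N P) {Γ : Type*} [Group Γ] [Finite Γ] (ι : Γ →* G) (hι : ∀ γ, ι γ ∈ N)
    (b : ℕ)
    (IH : ∀ (W : Type) [AddCommGroup W] [Module ℂ W] [FiniteDimensional ℂ W]
      (σ : Representation ℂ Γ W), σ.IsIrreducible → (∃ γ, σ γ ≠ 1) → b ≤ Module.finrank ℂ W)
    (γ : Γ) (hγ : ptr ρ P (ι γ) ≠ ptr ρ P 1) :
    b ≤ Module.finrank ℂ (LinearMap.range P) := by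
  let ρ' : Representation ℂ Γ V := MonoidHom.comp ρ ι
  let U0 : Subrepresentation ρ' :=
    { toSubmodule := LinearMap.range P
      apply_mem_toSubmodule := by
        rintro g v ⟨w, rfl⟩
        refine ⟨ρ (ι g) w, ?_⟩
        have := congrArg (fun f => f w) (hP.2 (ι g) (hι g))
        exact this.symm }
  refine md_ih_aux b IH _ (LinearMap.range P) U0.toRepresentation rfl ⟨γ, ?_⟩
  intro h1
  apply hγ
  have hfix : ∀ w, ρ (ι γ) (P w) = P w := by
    intro w
    have := congrArg (fun f => ((f ⟨P w, ⟨w, rfl⟩⟩ : LinearMap.range P) : V)) h1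
    simpa [Subrepresentation.toRepresentation, ρ', U0] using this
  have hcomp : ρ (ι γ) ∘ₗ P = ρ 1 ∘ₗ P := by
    apply LinearMap.ext
    intro w
    simp [hfix w]
  unfold ptr
  rw [hcomp]

end Cfsg.Agent.Helper65
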