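import Mathlib
import Cfsg.Agent.Helper90.MDSLDefs

/-!
# CALL S2332, piece MSE5: property (T) at level two for `n ≥ 5`

For `g' = tv ψ' b` and a character `lam` of `X = Xsub φ ψ` trivial on the centraliser of `g'`
in `X`, the element `g'` is the commutator of `tv η b` and `tv ψ' c`, both of which normalise
`Qsub φ` and `X` and fix `lam`.
-/

set_option autoImplicit false

namespace Cfsg.Agent.Helper65

open Module Cfsg.Agent.Helper90.MD Cfsg.Agent.Helper60.MinIdx

section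
variable {F V0 : Type*} [Field F] [AddCommGroup V0] [Module F V0]

/-- A transvection with centre `c` fixes every covector vanishing at `c`. -/
theorem md5_cg_tv {η f : Dual F V0} {c : V0} (hfc : f c = 0) : cg (tv η c) f = f := by
  by_cases h : η c = 0
  · ext x
    have hn : η (-c) = 0 := by rw [map_neg, h, neg_zero]
    rw [cg_apply, tv_inv, tv_apply hn]
    simp [hfc]
  · rw [tv_of_ne h, cg_one]

/-- Conjugating `tv f a` by `tv η c` when `η c = 0` and `f c = 0`. -/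
theorem md5_conj {η f : Dual F V0} {c : V0} (a : V0) (hηc : η c = 0) (hfc : f c = 0) :
    tv η c * tv f a * (tv η c)⁻¹ = tv f (a + η a • c) := by
  rw [tv_conj, md5_cg_tv hfc, tv_apply hηc]

/-- Conjugating `tv f a` by the inverse of `tv η c`. -/
theorem md5_conj_inv {η f : Dual F V0} {c : V0} (a : V0) (hηc : η c = 0) (hfc : f c = 0) :
    (tv η c)⁻¹ * tv f a * tv η c = tv f (a + η a • (-c)) := by
  have hn : η (-c) = 0 := by rw [map_neg, hηc, neg_zero]
  have hfn : f (-c) = 0 := by rw [map_neg, hfc, neg_zero]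
  have h := md5_conj (η := η) (f := f) (c := -c) a hn hfn
  rw [← tv_inv, inv_inv] at h
  exact h

/-- The commutator identity COMM. -/
theorem md5_comm {η ψ : Dual F V0} {b c : V0} (hηb : η b = 0) (hηc : η c = 1) (hψb : ψ b = 0)
    (hψc : ψ c = 0) : tv η b * tv ψ c * (tv η b)⁻¹ * (tv ψ c)⁻¹ = tv ψ b := by
  rw [md5_conj c hηb hψb, hηc, one_smul, tv_inv]
  have h1 : ψ (c + b) = 0 := by rw [map_add, hψc, hψb, add_zero]
  have h2 : ψ (-c) = 0 := by rw [map_neg, hψc, neg_zero]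
  rw [tv_add_left h1 h2]
  congr 1
  abel

/-- `tv η c` normalises `Qsub φ` when `η c = 0` and `φ c = 0`. -/
theorem md5_normBy_qsub {η φ : Dual F V0} {c : V0} (hηc : η c = 0) (hφc : φ c = 0) :
    NormBy (tv η c) (Qsub φ) := by
  refine ⟨fun x hx => ?_, fun x hx => ?_⟩
  · obtain ⟨a, ha, rfl⟩ := hx
    rw [md5_conj a hηc hφc]
    exact ⟨_, by rw [map_add, map_smul, ha, hφc, smul_zero, add_zero], rfl⟩
  · obtain ⟨a, ha, rfl⟩ := hx
    rw [md5_conj_inv a hηc hφc]
    exact ⟨_, by rw [map_add, map_smul, map_neg, ha, hφc, neg_zero, smul_zero, add_zero], rfl⟩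

/-- `tv η c` normalises `Xsub φ ψ` when `η c = 0`, `φ c = 0` and `ψ c = 0`. -/
theorem md5_normBy_xsub {η φ ψ : Dual F V0} {c : V0} (hηc : η c = 0) (hφc : φ c = 0)
    (hψc : ψ c = 0) : NormBy (tv η c) (Xsub φ ψ) := by
  refine ⟨fun x hx => ?_, fun x hx => ?_⟩
  · obtain ⟨a, ha, ha', rfl⟩ := hx
    rw [md5_conj a hηc hψc]
    exact ⟨_, by rw [map_add, map_smul, ha, hφc, smul_zero, add_zero],
      by rw [map_add, map_smul, ha', hψc, smul_zero, add_zero], rfl⟩
  · obtain ⟨a, ha, ha', rfl⟩ := hx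
    rw [md5_conj_inv a hηc hψc]
    exact ⟨_, by rw [map_add, map_smul, map_neg, ha, hφc, neg_zero, smul_zero, add_zero],
      by rw [map_add, map_smul, map_neg, ha', hψc, neg_zero, smul_zero, add_zero], rfl⟩

/-- The elements `tv η c` with `c` in the common kernel of `φ, ψ, ψ'` (and `η c = 0`) lie in
the stabiliser set of a character of `Xsub φ ψ` trivial on the centraliser of `tv ψ' b`. -/
theorem md5_stab {φ ψ ψ' η : Dual F V0} {b c : V0} (lam : SpecialLinearGroup F V0 → ℂ)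
    (hlam : IsCharOn (Xsub φ ψ) lam)
    (htriv : ∀ x ∈ csub (Xsub φ ψ) (tv ψ' b), lam x = 1)
    (hψ'b : ψ' b = 0) (hψb : ψ b = 0) (hηc : η c = 0) (hφc : φ c = 0) (hψc : ψ c = 0)
    (hψ'c : ψ' c = 0) :
    tv η c ∈ stabSet (normSub (Qsub φ)) (Xsub φ ψ) lam := by
  refine ⟨md5_normBy_qsub hηc hφc, md5_normBy_xsub hηc hφc hψc, ?_⟩
  rintro x ⟨a, ha, ha', rfl⟩
  rw [md5_conj a hηc hψc]
  have h0 : ψ (η a • c) = 0 := by rw [map_smul, hψc, smul_zero]
  have h0' : φ (η a • c) = 0 := by rw [map_smul, hφc, smul_zero]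
  rw [← tv_add_left ha' h0]
  have hmem1 : tv ψ a ∈ Xsub φ ψ := ⟨a, ha, ha', rfl⟩
  have hmem2 : tv ψ (η a • c) ∈ Xsub φ ψ := ⟨_, h0', h0, rfl⟩
  rw [hlam.2 _ hmem1 _ hmem2]
  have hcs : tv ψ (η a • c) ∈ csub (Xsub φ ψ) (tv ψ' b) := by
    refine ⟨hmem2, ?_⟩
    have h := md5_conj (η := ψ') (f := ψ) (c := b) (η a • c) hψ'b hψb
    have h3 : ψ' (η a • c) = 0 := by rw [map_smul, hψ'c, smul_zero]
    rw [h3, zero_smul, add_zero] at h
    -- `g * x * g⁻¹ = x`
    have h4 := congrArg (fun y => y * tv ψ' b) h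
    simpa [mul_assoc] using h4
  rw [htriv _ hcs, mul_one]

end

section
variable {F V0 : Type*} [Field F] [Finite F] [AddCommGroup V0] [Module F V0] [Module.Finite F V0]

theorem propT1_ge5 (hn : 5 ≤ finrank F V0) {φ ψ ψ' : Dual F V0} {b : V0}
    (hli : LinearIndependent F ![φ, ψ, ψ']) (hφb : φ b = 0) (hψb : ψ b = 0) (hψ'b : ψ' b = 0)
    (hb : b ≠ 0) :
    PropT (normSub (Qsub φ)) (Xsub φ ψ) (csub (Xsub φ ψ) (tv ψ' b)) (tv ψ' b) := by
  intro lam hlam _ htriv
  -- dimension count for the common kernel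
  have hk : ∀ f : Dual F V0, finrank F V0 ≤ finrank F (LinearMap.ker f) + 1 := by
    intro f
    have h1 := LinearMap.finrank_range_add_finrank_ker f
    have h2 : finrank F (LinearMap.range f) ≤ 1 := by
      calc finrank F (LinearMap.range f) ≤ finrank F F := Submodule.finrank_le _
        _ = 1 := finrank_self F
    omega
  have hinf : ∀ (A B : Submodule F V0),
      finrank F A + finrank F B ≤ finrank F ↥(A ⊓ B) + finrank F V0 := by
    intro A B
    have h1 := Submodule.finrank_sup_add_finrank_inf_eq A B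
    have h2 : finrank F ↥(A ⊔ B) ≤ finrank F V0 := Submodule.finrank_le _
    omega
  obtain ⟨K3, hK3⟩ : ∃ K3 : Submodule F V0,
      K3 = (LinearMap.ker φ ⊓ LinearMap.ker ψ) ⊓ LinearMap.ker ψ' := ⟨_, rfl⟩
  have hK3dim : 2 ≤ finrank F K3 := by
    rw [hK3]
    have h1 := hk φ
    have h2 := hk ψ
    have h3 := hk ψ'
    have h4 := hinf (LinearMap.ker φ) (LinearMap.ker ψ)
    have h5 := hinf (LinearMap.ker φ ⊓ LinearMap.ker ψ) (LinearMap.ker ψ')
    omega
  obtain ⟨c2, hc2K, hc2b⟩ : ∃ c2 ∈ K3, c2 ∉ Submodule.span F {b} := by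
    by_contra hcon
    push Not at hcon
    have hle : K3 ≤ Submodule.span F {b} := fun x hx => hcon x hx
    have h1 := Submodule.finrank_mono hle
    have h2 : finrank F (Submodule.span F {b}) = 1 := finrank_span_singleton hb
    omega
  rw [hK3] at hc2K
  have hφc : φ c2 = 0 := hc2K.1.1
  have hψc : ψ c2 = 0 := hc2K.1.2
  have hψ'c : ψ' c2 = 0 := hc2K.2
  obtain ⟨η1, hη1b, hη1c⟩ := exists_dual_zero_one hc2b
  have hs1 : tv η1 b ∈ stabSet (normSub (Qsub φ)) (Xsub φ ψ) lam :=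
    md5_stab lam hlam htriv hψ'b hψb hη1b hφb hψb hψ'b
  have hs2 : tv ψ' c2 ∈ stabSet (normSub (Qsub φ)) (Xsub φ ψ) lam :=
    md5_stab lam hlam htriv hψ'b hψb hψ'c hφc hψc hψ'c
  apply Subgroup.subset_closure
  exact ⟨tv η1 b, hs1, tv ψ' c2, hs2, (md5_comm hη1b hη1c hψ'b hψ'c).symm⟩

end

end Cfsg.Agent.Helper65
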