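import Mathlib
import Cfsg.Agent.S4010
import Cfsg.Agent.S4417

set_option autoImplicit false

/-!
# Linear `p`-groups in coprime characteristic: derived length at most `log_p n + 1`

The `log_p` refinement of `Cfsg.Agent.S4010` (whose proof, due to the lead, is followed closely):
over an algebraically closed field of characteristic different from `p`, a finite `p`-group acting
faithfully on an `n`-dimensional space has derived length at most `⌊log_p n⌋ + 1`.
-/

namespace Cfsg.Agent.Helper65.PLinear

open Module Polynomial Cfsg.Agent.S4010 Cfsg.Agent.S4417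

universe u v w

/-- Eigenspaces for distinct eigenvalues are independent: a dimension count. -/
theorem card_mul_le_finrank_eigenspaces {K : Type*} [Field K] {V : Type*} [AddCommGroup V]
    [Module K V] [FiniteDimensional K V] (f : Module.End K V) (d : ℕ) (s : Finset K)
    (hs : ∀ μ ∈ s, d ≤ finrank K (Module.End.eigenspace f μ)) :
    s.card * d ≤ finrank K (⨆ μ ∈ s, Module.End.eigenspace f μ : Submodule K V) := by
  classical
  induction s using Finset.induction_on with
  | empty => simp
  | insert a s ha ih =>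
    have ih' := ih (fun μ hμ => hs μ (Finset.mem_insert_of_mem hμ))
    rw [Finset.iSup_insert, Finset.card_insert_of_notMem ha]
    have hdisj : Disjoint (Module.End.eigenspace f a) (⨆ μ ∈ s, Module.End.eigenspace f μ) := by
      have := (Module.End.eigenspaces_iSupIndep f).disjoint_biSup (x := a) (y := (s : Set K))
        (by simpa using ha)
      simpa using this
    have h1 := Submodule.finrank_sup_add_finrank_inf_eq (Module.End.eigenspace f a)
      (⨆ μ ∈ s, Module.End.eigenspace f μ)
    rw [hdisj.eq_bot, finrank_bot, add_zero] at h1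
    have h2 := hs a (Finset.mem_insert_self a s)
    rw [h1, add_mul, one_mul]
    omega

theorem charNe_p {K : Type w} [Field K] [IsAlgClosed K] (p : ℕ) [Fact p.Prime] (hpK : (p : K) ≠ 0) :
    ∀ (n : ℕ) (P : Type u) [Group P] [Finite P] (_ : IsPGroup p P) (V : Type v) [AddCommGroup V]
      [Module K V] [FiniteDimensional K V] (_ : finrank K V = n) (ρ : Representation K P V)
      (_ : Function.Injective ρ), derivedSeries P (Nat.log p n + 1) = ⊥ := by
  intro n
  induction n using Nat.strong_induction_on with
  | _ n IH =>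
  intro P _ _ hP V _ _ _ hn ρ hρ
  have IHker : ∀ m < n, ∀ (Q : Type u) [Group Q] [Finite Q] (_ : IsPGroup p Q) (W : Type v)
      [AddCommGroup W] [Module K W] [FiniteDimensional K W] (_ : finrank K W = m)
      (σ : Representation K Q W), derivedSeries Q (Nat.log p m + 1) ≤ σ.ker := by
    intro m hm Q _ _ hQ W _ _ _ hW σ
    exact dS_le_ker_of_quot σ _ (IH m hm (Q ⧸ σ.ker) (hQ.to_quotient _) W hW
      (QuotientGroup.lift σ.ker σ le_rfl) (quot_inj σ))
  by_cases hab : ∀ a b : P, a * b = b * a
  · have h1 : derivedSeries P 1 = ⊥ := by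
      rw [derivedSeries_one, commutator_def, Subgroup.commutator_eq_bot_iff_le_centralizer]
      intro x _
      rw [Subgroup.mem_centralizer_iff]
      intro y _
      exact hab y x
    exact le_bot_iff.mp (h1 ▸ derivedSeries_antitone P (by omega : 1 ≤ Nat.log p n + 1))
  by_cases hred : ∃ W : Submodule K V, W ≠ ⊥ ∧ W ≠ ⊤ ∧ ∀ g, W ≤ W.comap (ρ g)
  · obtain ⟨W, hW0, hW1, hinv⟩ := hred
    have hlt1 : finrank K W < n := hn ▸ Submodule.finrank_lt hW1
    have hsum := Submodule.finrank_quotient_add_finrank W
    have hpos : 0 < finrank K W := by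
      have : Nontrivial W := (Submodule.nontrivial_iff_ne_bot).mpr hW0
      exact Module.finrank_pos
    have hlt2 : finrank K (V ⧸ W) < n := by omega
    have h1 := IHker _ hlt1 P hP W rfl (ρ.subrepresentation W hinv)
    have h2 := IHker _ hlt2 P hP (V ⧸ W) rfl (ρ.quotient W hinv)
    have hm1 : Nat.log p (finrank K W) + 1 ≤ Nat.log p n + 1 := by
      have := Nat.log_mono_right (b := p) hlt1.le; omega
    have hm2 : Nat.log p (finrank K (V ⧸ W)) + 1 ≤ Nat.log p n + 1 := by
      have := Nat.log_mono_right (b := p) hlt2.le; omega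
    rw [eq_bot_iff]
    intro g hg
    have hg1 := h1 (derivedSeries_antitone P hm1 hg)
    have hg2 := h2 (derivedSeries_antitone P hm2 hg)
    rw [MonoidHom.mem_ker] at hg1 hg2
    have e1 : ∀ w ∈ W, ρ g w = w := by
      intro w hw
      have := congrArg (fun f : Module.End K W => ((f ⟨w, hw⟩ : W) : V)) hg1
      simpa using this
    have e2 : ∀ x, ρ g x - x ∈ W := by
      intro x
      have := congrArg (fun f : Module.End K (V ⧸ W) => f (Submodule.Quotient.mk x)) hg2
      simp only [Representation.quotient_apply, Submodule.mapQ_apply, Module.End.one_apply] at this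
      exact (Submodule.Quotient.eq W).mp this
    set N : Module.End K V := ρ g - 1 with hN
    have hNN : N * N = 0 := by
      ext x
      have := e1 _ (e2 x)
      simp only [hN, Module.End.mul_apply, LinearMap.sub_apply, Module.End.one_apply,
        LinearMap.zero_apply, map_sub]
      rw [map_sub] at this
      rw [this]; abel
    obtain ⟨a, ha⟩ := hP g
    have hpow : (ρ g) ^ (p ^ a) = 1 := by rw [← map_pow, ha, map_one]
    have hρg : ρ g = 1 + N := by rw [hN]; abel
    rw [hρg, one_add_pow_of_sq_zero N hNN] at hpow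
    have hz : (p ^ a) • N = 0 := by simpa using hpow
    have hz' : ((p ^ a : ℕ) : K) • N = 0 := by rw [Nat.cast_smul_eq_nsmul]; exact hz
    have hN0 : N = 0 := by
      rcases smul_eq_zero.mp hz' with h | h
      · exact absurd h (by push_cast; exact pow_ne_zero a hpK)
      · exact h
    have : ρ g = ρ 1 := by rw [hρg, hN0, add_zero, map_one]
    rw [Subgroup.mem_bot]; exact hρ this
  · have hirr : ∀ W : Submodule K V, (∀ g, W ≤ W.comap (ρ g)) → W ≠ ⊥ → W = ⊤ := by
      intro W hinv h0
      by_contra h1
      exact hred ⟨W, h0, h1, hinv⟩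
    have hnt : Nontrivial V := by
      by_contra hnt
      rw [not_nontrivial_iff_subsingleton] at hnt
      exact hab fun a b => hρ (LinearMap.ext fun x => Subsingleton.elim _ _)
    have hscal : ∀ c ∈ Subgroup.center P, ∃ μ : K, ∀ x, ρ c x = μ • x := by
      intro c hc
      obtain ⟨μ, hμ⟩ := Module.End.exists_eigenvalue (ρ c)
      refine ⟨μ, fun x => ?_⟩
      have hE : Module.End.eigenspace (ρ c) μ = ⊤ := by
        apply hirr
        · intro g x hx
          rw [Submodule.mem_comap, Module.End.mem_eigenspace_iff]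
          rw [Module.End.mem_eigenspace_iff] at hx
          have : ρ c (ρ g x) = ρ g (ρ c x) := by
            rw [← Module.End.mul_apply, ← Module.End.mul_apply, ← map_mul, ← map_mul,
              (Subgroup.mem_center_iff.mp hc g)]
          rw [this, hx, map_smul]
        · exact hμ
      have : x ∈ Module.End.eigenspace (ρ c) μ := hE ▸ Submodule.mem_top
      exact Module.End.mem_eigenspace_iff.mp this
    obtain ⟨z, hz, hzc⟩ : ∃ z : P, z ∉ Subgroup.center P ∧
        ∀ g, z * g * z⁻¹ * g⁻¹ ∈ Subgroup.center P := by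
      have hnc : ∃ a : P, a ∉ Subgroup.center P := by
        by_contra h
        push Not at h
        exact hab fun a b => (Subgroup.mem_center_iff.mp (h b) a)
      obtain ⟨a0, ha0⟩ := hnc
      have : Nontrivial (P ⧸ Subgroup.center P) :=
        ⟨⟨(a0 : P ⧸ Subgroup.center P), 1, fun h => ha0 ((QuotientGroup.eq_one_iff a0).mp h)⟩⟩
      have hQ : IsPGroup p (P ⧸ Subgroup.center P) := hP.to_quotient _
      have := hQ.center_nontrivial
      obtain ⟨⟨zb, hzb⟩, hne⟩ := exists_ne (1 : Subgroup.center (P ⧸ Subgroup.center P))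
      obtain ⟨z, rfl⟩ := QuotientGroup.mk_surjective zb
      refine ⟨z, fun hzc => hne (Subtype.ext ((QuotientGroup.eq_one_iff z).mpr hzc)), fun g => ?_⟩
      rw [← QuotientGroup.eq_one_iff]
      have := Subgroup.mem_center_iff.mp hzb (g : P ⧸ Subgroup.center P)
      rw [QuotientGroup.mk_mul, QuotientGroup.mk_mul, QuotientGroup.mk_mul, QuotientGroup.mk_inv,
        QuotientGroup.mk_inv, ← this]
      group
    have hmul : ∀ a b : P, z * (a * b) * z⁻¹ * (a * b)⁻¹ =
        (z * a * z⁻¹ * a⁻¹) * (z * b * z⁻¹ * b⁻¹) := by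
      intro a b
      have hcb := Subgroup.mem_center_iff.mp (hzc b) a⁻¹
      calc z * (a * b) * z⁻¹ * (a * b)⁻¹
          = z * a * z⁻¹ * ((z * b * z⁻¹ * b⁻¹) * a⁻¹) := by group
        _ = z * a * z⁻¹ * (a⁻¹ * (z * b * z⁻¹ * b⁻¹)) := by rw [hcb]
        _ = (z * a * z⁻¹ * a⁻¹) * (z * b * z⁻¹ * b⁻¹) := by simp only [mul_assoc]
    obtain ⟨M, hcomm, hMz⟩ : ∃ M : Subgroup P, commutator P ≤ M ∧ ∀ m ∈ M, z * m = m * z := by
      refine ⟨Subgroup.centralizer {z}, ?_, ?_⟩
      · rw [commutator_def, Subgroup.commutator_le]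
        intro a _ b _
        rw [Subgroup.mem_centralizer_iff]
        intro h hh
        rw [Set.mem_singleton_iff.mp hh]
        have hinv : ∀ a : P, z * a⁻¹ * z⁻¹ * a⁻¹⁻¹ = (z * a * z⁻¹ * a⁻¹)⁻¹ := by
          intro a
          have h := hmul a a⁻¹
          rw [mul_inv_cancel] at h
          have h0 : z * 1 * z⁻¹ * (1 : P)⁻¹ = 1 := by group
          rw [h0] at h
          exact eq_inv_of_mul_eq_one_right h.symm
        have hcc := Subgroup.mem_center_iff.mp (hzc b) (z * a * z⁻¹ * a⁻¹)
        rw [commutatorElement_def]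
        have key : z * (a * b * a⁻¹ * b⁻¹) * z⁻¹ * (a * b * a⁻¹ * b⁻¹)⁻¹ = 1 := by
          rw [hmul, hmul, hmul, hinv, hinv, hcc]; group
        calc z * (a * b * a⁻¹ * b⁻¹)
            = (z * (a * b * a⁻¹ * b⁻¹) * z⁻¹ * (a * b * a⁻¹ * b⁻¹)⁻¹) * ((a * b * a⁻¹ * b⁻¹) * z) := by
              group
          _ = (a * b * a⁻¹ * b⁻¹) * z := by rw [key, one_mul]
      · intro m hm
        exact Subgroup.mem_centralizer_iff.mp hm z rfl
    have hstep : ∀ g : P, ∃ μ : K, (∀ x, ρ (z * g * z⁻¹ * g⁻¹) x = μ • x) ∧
        ∀ (ν : K) (x : V), ρ z x = ν • x → ρ z (ρ g x) = (μ * ν) • ρ g x := by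
      intro g
      obtain ⟨μ, hμ⟩ := hscal _ (hzc g)
      refine ⟨μ, hμ, fun ν x hx => ?_⟩
      have e2 : ρ z * ρ g = ρ (z * g * z⁻¹ * g⁻¹) * ρ g * ρ z := by
        rw [← map_mul, ← map_mul, ← map_mul]; congr 1; group
      calc ρ z (ρ g x) = (ρ z * ρ g) x := rfl
        _ = ρ (z * g * z⁻¹ * g⁻¹) (ρ g (ρ z x)) := by rw [e2]; rfl
        _ = (μ * ν) • ρ g x := by rw [hμ, hx, map_smul, smul_smul]
    have hS : (⨆ ν : K, Module.End.eigenspace (ρ z) ν) = ⊤ := by
      apply hirr
      · intro g
        rw [← Submodule.map_le_iff_le_comap, Submodule.map_iSup]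
        apply iSup_le
        intro ν
        obtain ⟨μ, -, hμ⟩ := hstep g
        refine le_trans ?_ (le_iSup _ (μ * ν))
        rintro _ ⟨x, hx, rfl⟩
        exact Module.End.mem_eigenspace_iff.mpr (hμ ν x (Module.End.mem_eigenspace_iff.mp hx))
      · obtain ⟨μ, hμ⟩ := Module.End.exists_eigenvalue (ρ z)
        intro h
        exact hμ (le_bot_iff.mp (h ▸ le_iSup (fun ν => Module.End.eigenspace (ρ z) ν) μ))
    obtain ⟨g1, hg1⟩ : ∃ g1 : P, g1 * z ≠ z * g1 := by
      by_contra h
      push Not at h
      exact hz (Subgroup.mem_center_iff.mpr h)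
    obtain ⟨μ1, hμ1, hμ1'⟩ := hstep g1
    have hμ1ne : μ1 ≠ 1 := by
      intro h
      have : ρ (z * g1 * z⁻¹ * g1⁻¹) = ρ 1 := by
        ext x; rw [hμ1, h, one_smul, map_one]; rfl
      have h2 := hρ this
      apply hg1
      calc g1 * z = (z * g1 * z⁻¹ * g1⁻¹)⁻¹ * (z * g1) := by group
        _ = z * g1 := by rw [h2, inv_one, one_mul]
    have hdim : ∀ ν : K, p * finrank K (Module.End.eigenspace (ρ z) ν) ≤ n := by
      classical
      intro ν
      by_cases hν : ν = 0
      · have hE0 : Module.End.eigenspace (ρ z) ν = ⊥ := by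
          rw [eq_bot_iff]
          intro x hx
          rw [Module.End.mem_eigenspace_iff, hν, zero_smul] at hx
          rw [Submodule.mem_bot]
          exact rep_inj ρ z (hx.trans (map_zero _).symm)
        rw [hE0, finrank_bot, mul_zero]
        exact Nat.zero_le _
      -- `μ1` is a nontrivial `p`-power root of unity
      obtain ⟨a, ha⟩ := hP (z * g1 * z⁻¹ * g1⁻¹)
      have hμ1pow : μ1 ^ (p ^ a) = 1 := by
        obtain ⟨x, hx⟩ := exists_ne (0 : V)
        have h1 : ∀ k : ℕ, ρ ((z * g1 * z⁻¹ * g1⁻¹) ^ k) x = μ1 ^ k • x := by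
          intro k
          induction k with
          | zero => simp
          | succ k ih =>
            rw [pow_succ, map_mul, Module.End.mul_apply, hμ1, map_smul, ih, smul_smul, pow_succ,
              mul_comm]
        have h2 := h1 (p ^ a)
        rw [ha, map_one, Module.End.one_apply] at h2
        have h3 : (μ1 ^ (p ^ a) - 1) • x = 0 := by rw [sub_smul, one_smul, ← h2, sub_self]
        rcases smul_eq_zero.mp h3 with h | h
        · exact sub_eq_zero.mp h
        · exact absurd h hx
      have hpp : p.Prime := Fact.out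
      have hpord : p ≤ orderOf μ1 := by
        have h1 : orderOf μ1 ∣ p ^ a := orderOf_dvd_of_pow_eq_one hμ1pow
        obtain ⟨b, -, hb⟩ := (Nat.dvd_prime_pow hpp).mp h1
        have hb0 : b ≠ 0 := by
          rintro rfl
          rw [pow_zero] at hb
          exact hμ1ne (orderOf_eq_one_iff.mp hb)
        rw [hb]
        exact Nat.le_self_pow hb0 p
      -- the eigenspaces for `μ1 ^ i * ν`
      have hmove : ∀ (i : ℕ) (x : V), ρ z x = ν • x →
          ρ z (ρ (g1 ^ i) x) = (μ1 ^ i * ν) • ρ (g1 ^ i) x := by
        intro i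
        induction i with
        | zero => intro x hx; simpa using hx
        | succ i ih =>
          intro x hx
          rw [pow_succ', map_mul, Module.End.mul_apply, hμ1' _ _ (ih x hx), pow_succ', mul_assoc]
      have hge : ∀ i : ℕ, finrank K (Module.End.eigenspace (ρ z) ν) ≤
          finrank K (Module.End.eigenspace (ρ z) (μ1 ^ i * ν)) := by
        intro i
        have h1 : (Module.End.eigenspace (ρ z) ν).map (ρ (g1 ^ i)) ≤
            Module.End.eigenspace (ρ z) (μ1 ^ i * ν) := by
          rintro _ ⟨x, hx, rfl⟩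
          exact Module.End.mem_eigenspace_iff.mpr (hmove i x (Module.End.mem_eigenspace_iff.mp hx))
        have h2 : finrank K ((Module.End.eigenspace (ρ z) ν).map (ρ (g1 ^ i))) =
            finrank K (Module.End.eigenspace (ρ z) ν) :=
          (LinearEquiv.finrank_eq (Submodule.equivMapOfInjective (ρ (g1 ^ i))
            (rep_inj ρ (g1 ^ i)) _)).symm
        rw [← h2]
        exact Submodule.finrank_mono h1
      have hinjOn : Set.InjOn (fun i : ℕ => μ1 ^ i * ν) (Finset.range p : Set ℕ) := by
        intro i hi j hj hij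
        have h1 : μ1 ^ i = μ1 ^ j := mul_right_cancel₀ hν hij
        have hi' : i < orderOf μ1 := lt_of_lt_of_le (Finset.mem_range.mp hi) hpord
        have hj' : j < orderOf μ1 := lt_of_lt_of_le (Finset.mem_range.mp hj) hpord
        exact pow_injOn_Iio_orderOf hi' hj' h1
      have hcard : ((Finset.range p).image (fun i : ℕ => μ1 ^ i * ν)).card = p := by
        rw [Finset.card_image_of_injOn hinjOn, Finset.card_range]
      have h4 := card_mul_le_finrank_eigenspaces (ρ z)
        (finrank K (Module.End.eigenspace (ρ z) ν))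
        ((Finset.range p).image (fun i : ℕ => μ1 ^ i * ν)) (by
          intro μ hμ
          obtain ⟨i, -, rfl⟩ := Finset.mem_image.mp hμ
          exact hge i)
      rw [hcard] at h4
      have h5 := Submodule.finrank_le
        (⨆ μ ∈ (Finset.range p).image (fun i : ℕ => μ1 ^ i * ν), Module.End.eigenspace (ρ z) μ)
      rw [hn] at h5
      exact h4.trans h5
    have hMbot : derivedSeries M (Nat.log p n) = ⊥ := by
      rw [eq_bot_iff]
      intro m hm
      rw [Subgroup.mem_bot]
      have hfix : ∀ ν : K, Module.End.eigenspace (ρ z) ν ≤ LinearMap.eqLocus (ρ (m : P)) 1 := by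
        intro ν
        by_cases hE0 : Module.End.eigenspace (ρ z) ν = ⊥
        · rw [hE0]; exact bot_le
        have hinvM : ∀ m' : M, Module.End.eigenspace (ρ z) ν ≤
            (Module.End.eigenspace (ρ z) ν).comap ((ρ.comp M.subtype) m') := by
          intro m' x hx
          rw [Submodule.mem_comap, Module.End.mem_eigenspace_iff]
          rw [Module.End.mem_eigenspace_iff] at hx
          have : ρ z (ρ (m' : P) x) = ρ (m' : P) (ρ z x) := by
            rw [← Module.End.mul_apply, ← Module.End.mul_apply, ← map_mul, ← map_mul,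
              hMz _ m'.2]
          show ρ z (ρ (m' : P) x) = ν • ρ (m' : P) x
          rw [this, hx, map_smul]
        have hd := hdim ν
        have hdpos : 0 < finrank K (Module.End.eigenspace (ρ z) ν) := by
          have : Nontrivial (Module.End.eigenspace (ρ z) ν) :=
            (Submodule.nontrivial_iff_ne_bot).mpr hE0
          exact Module.finrank_pos
        have hpp : p.Prime := Fact.out
        have hlt : finrank K (Module.End.eigenspace (ρ z) ν) < n := by
          have h2 : 2 * finrank K (Module.End.eigenspace (ρ z) ν) ≤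
              p * finrank K (Module.End.eigenspace (ρ z) ν) := Nat.mul_le_mul_right _ hpp.two_le
          omega
        have h1 := IHker _ hlt M (hP.to_subgroup M) (Module.End.eigenspace (ρ z) ν) rfl
          (Representation.subrepresentation (ρ.comp M.subtype : Representation K M V) _ hinvM)
        have hlog : Nat.log p (finrank K (Module.End.eigenspace (ρ z) ν)) + 1 ≤ Nat.log p n := by
          rw [← Nat.log_mul_base hpp.one_lt hdpos.ne']
          exact Nat.log_mono_right (by rw [mul_comm]; exact hd)
        have hm1 := h1 (derivedSeries_antitone M hlog hm)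
        rw [MonoidHom.mem_ker] at hm1
        intro x hx
        rw [LinearMap.mem_eqLocus]
        have := congrArg (fun f : Module.End K (Module.End.eigenspace (ρ z) ν) =>
          ((f ⟨x, hx⟩ : Module.End.eigenspace (ρ z) ν) : V)) hm1
        simpa using this
      have htop : (⊤ : Submodule K V) ≤ LinearMap.eqLocus (ρ (m : P)) 1 := hS ▸ iSup_le hfix
      have : ρ (m : P) = ρ 1 := by
        ext x
        rw [map_one]
        exact LinearMap.mem_eqLocus.mp (htop Submodule.mem_top)
      exact Subtype.ext (hρ this)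
    have hfin := dS_succ_le M hcomm (Nat.log p n)
    rw [hMbot, Subgroup.map_bot] at hfin
    exact le_bot_iff.mp hfin


/-- The matrix form over an arbitrary field of characteristic different from `p`. -/
theorem gl_bound_p {P : Type*} [Group P] [Finite P] (p : ℕ) [Fact p.Prime] (hP : IsPGroup p P)
    (L : Type*) [Field L] (hpL : (p : L) ≠ 0) (m : ℕ)
    (τ : P →* Matrix.GeneralLinearGroup (Fin m) L) (hτ : Function.Injective τ) :
    derivedSeries P (Nat.log p m + 1) = ⊥ := by
  let K := AlgebraicClosure L
  let ρ' : Representation K P (Fin m → K) :=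
    ((Matrix.toLinAlgEquiv' : Matrix (Fin m) (Fin m) K ≃ₐ[K] _) :
        Matrix (Fin m) (Fin m) K →* _).comp
      ((Units.coeHom _).comp ((Matrix.GeneralLinearGroup.map (algebraMap L K)).comp τ))
  have hinj : Function.Injective ρ' := by
    intro a b hab
    apply hτ
    have h1 : (Matrix.GeneralLinearGroup.map (algebraMap L K) (τ a) : Matrix (Fin m) (Fin m) K) =
        (Matrix.GeneralLinearGroup.map (algebraMap L K) (τ b) : Matrix (Fin m) (Fin m) K) :=
      Matrix.toLinAlgEquiv'.injective hab
    apply Units.ext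
    apply Matrix.map_injective (FaithfulSMul.algebraMap_injective L K)
    exact h1
  have hfr : finrank K (Fin m → K) = m := Module.finrank_fin_fun K
  have hpK : (p : K) ≠ 0 := by
    intro h0
    apply hpL
    have h1 : algebraMap L K (p : L) = 0 := by rw [map_natCast]; exact h0
    exact (map_eq_zero (algebraMap L K)).mp h1
  exact charNe_p p hpK m P hP (Fin m → K) hfr ρ' hinj

/-- The general statement: a finite `p`-group acting linearly on a space of dimension `N` over a
finite field `F` of order prime to `p` has its `(⌊log_p (N / e)⌋ + 1)`-st derived subgroup in the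
kernel, `e` the order of `#F` modulo `p`. -/
theorem main_p (F : Type w) [Field F] [Finite F] (p : ℕ) [Fact p.Prime] (hpF : (p : F) ≠ 0)
    (e : ℕ) (he : e = orderOf ((Nat.card F : ℕ) : ZMod p)) :
    ∀ N : ℕ, ∀ (V : Type w) [AddCommGroup V] [Module F V] [FiniteDimensional F V]
      (G : Type u) [Group G] [Finite G], IsPGroup p G → ∀ ρ : G →* Module.End F V,
      finrank F V = N → derivedSeries G (Nat.log p (N / e) + 1) ≤ ρ.ker := by
  intro N
  induction N using Nat.strong_induction_on with
  | _ N ih =>
  intro V _ _ _ G _ _ hG ρ hN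
  -- reduce to a faithful representation
  suffices key : ∀ (G : Type u) [Group G] [Finite G], IsPGroup p G →
      ∀ ρ : G →* Module.End F V, Function.Injective ρ →
      derivedSeries G (Nat.log p (N / e) + 1) = ⊥ by
    have hQ : IsPGroup p (G ⧸ ρ.ker) := hG.to_quotient ρ.ker
    have hinj : Function.Injective (QuotientGroup.lift ρ.ker ρ le_rfl) := by
      intro x y hxy
      obtain ⟨a, rfl⟩ := QuotientGroup.mk_surjective x
      obtain ⟨b, rfl⟩ := QuotientGroup.mk_surjective y
      have h1 : ρ a = ρ b := hxy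
      rw [QuotientGroup.eq, MonoidHom.mem_ker, map_mul, ← h1, ← map_mul, inv_mul_cancel, map_one]
    have h0 := key (G ⧸ ρ.ker) hQ (QuotientGroup.lift ρ.ker ρ le_rfl) hinj
    intro g hg
    have h1 : QuotientGroup.mk' ρ.ker g ∈
        (derivedSeries G (Nat.log p (N / e) + 1)).map (QuotientGroup.mk' ρ.ker) := ⟨g, hg, rfl⟩
    have h2 := map_derivedSeries_le_derivedSeries (QuotientGroup.mk' ρ.ker) _ h1
    rw [h0] at h2
    exact (QuotientGroup.eq_one_iff g).mp (Subgroup.mem_bot.mp h2)
  clear hG ρ
  intro G _ _ hG ρ hρ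
  by_cases htriv : Subsingleton G
  · exact Subsingleton.elim _ _
  rw [not_subsingleton_iff_nontrivial] at htriv
  have hpp : p.Prime := Fact.out
  -- a central element of order `p`
  obtain ⟨z, hzc, hzo⟩ : ∃ z : G, z ∈ Subgroup.center G ∧ orderOf z = p := by
    have hnt := hG.center_nontrivial
    have hZ : IsPGroup p (Subgroup.center G) := hG.to_subgroup _
    obtain ⟨k, hk⟩ := IsPGroup.iff_card.mp hZ
    have hk0 : k ≠ 0 := by
      rintro rfl
      rw [pow_zero] at hk
      have := (Nat.card_eq_one_iff_unique.mp hk).1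
      exact not_subsingleton (Subgroup.center G) this
    have hdvd : p ∣ Nat.card (Subgroup.center G) := hk ▸ dvd_pow_self p hk0
    obtain ⟨x, hx⟩ := exists_prime_orderOf_dvd_card' p hdvd
    exact ⟨x, x.2, by rw [← hx, Subgroup.orderOf_coe]⟩
  obtain ⟨f, hfdef⟩ : ∃ f : Module.End F V, f = ρ z := ⟨_, rfl⟩
  have hfp : f ^ p = 1 := by rw [hfdef, ← map_pow, ← hzo, pow_orderOf_eq_one, map_one]
  have hz1 : z ≠ 1 := by
    rintro rfl
    rw [orderOf_one] at hzo
    exact hpp.one_lt.ne hzo
  have hf1 : f ≠ 1 := by
    intro h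
    rw [hfdef, ← map_one ρ] at h
    exact hz1 (hρ h)
  have hcomm : ∀ g, Commute (ρ g) f := by
    intro g
    rw [hfdef]
    show ρ g * ρ z = ρ z * ρ g
    rw [← map_mul, ← map_mul, Subgroup.mem_center_iff.mp hzc g]
  have hint : IsIntegral F f := Algebra.IsIntegral.isIntegral f
  obtain ⟨μ, hμdef⟩ : ∃ μ : F[X], μ = minpoly F f := ⟨_, rfl⟩
  have hμf : aeval f μ = 0 := hμdef ▸ minpoly.aeval F f
  have hμdvd : μ ∣ X ^ p - 1 := by
    rw [hμdef]
    apply minpoly.dvd
    rw [map_sub, map_pow, aeval_X, map_one, hfp, sub_self]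
  have hμsep : μ.Separable := (Polynomial.X_pow_sub_one_separable_iff.mpr hpF).of_dvd hμdvd
  have hμ0 : μ ≠ 0 := hμdef ▸ minpoly.ne_zero hint
  have hμdvd' : ∀ c : F[X], aeval f c = 0 → μ ∣ c := fun c hc => hμdef ▸ minpoly.dvd F f hc
  have hinv : ∀ c : F[X], ∀ g, ∀ w ∈ LinearMap.ker (aeval f c), ρ g w ∈ LinearMap.ker (aeval f c) := by
    intro c g w hw
    rw [LinearMap.mem_ker] at hw ⊢
    have h1 := (commute_aeval (hcomm g) c).eq
    have h2 := congrArg (fun φ : Module.End F V => φ w) h1
    simp only [Module.End.mul_apply] at h2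
    rw [← h2, hw, map_zero]
  by_cases hirr : Irreducible μ
  · -- `V` is a vector space over the field `F[X]/(μ)`
    have : Fact (Irreducible μ) := ⟨hirr⟩
    obtain ⟨φ, hφ⟩ : ∃ φ : AdjoinRoot μ →+* Module.End F V,
        ∀ a : F[X], φ (AdjoinRoot.mk μ a) = aeval f a := by
      refine ⟨Ideal.Quotient.lift (Ideal.span {μ}) ((aeval f : F[X] →ₐ[F] Module.End F V) : F[X] →+* Module.End F V) ?_, fun a => rfl⟩
      intro a ha
      obtain ⟨b, rfl⟩ := Ideal.mem_span_singleton.mp ha
      show aeval f (μ * b) = 0
      rw [map_mul, hμf, zero_mul]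
    let instL : Module (AdjoinRoot μ) V := Module.compHom V φ
    have hsmul : ∀ (l : AdjoinRoot μ) (v : V), l • v = φ l v := fun l v => rfl
    have : IsScalarTower F (AdjoinRoot μ) V := by
      refine ⟨fun c l v => ?_⟩
      obtain ⟨a, rfl⟩ := AdjoinRoot.mk_surjective l
      rw [hsmul, hsmul, AdjoinRoot.smul_mk, hφ, hφ, map_smul]
      rfl
    have : Module.Finite F (AdjoinRoot μ) := (hμdef ▸ minpoly.monic hint).finite_adjoinRoot
    have : Module.Finite (AdjoinRoot μ) V := Module.Finite.of_restrictScalars_finite F (AdjoinRoot μ) V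
    have hlin : ∀ (g : G) (l : AdjoinRoot μ) (v : V), ρ g (l • v) = l • ρ g v := by
      intro g l v
      obtain ⟨a, rfl⟩ := AdjoinRoot.mk_surjective l
      rw [hsmul, hsmul, hφ]
      have h1 := (commute_aeval (hcomm g) a).eq
      have h2 := congrArg (fun ψ : Module.End F V => ψ v) h1
      simpa only [Module.End.mul_apply] using h2
    let ρL : G →* Module.End (AdjoinRoot μ) V :=
      { toFun := fun g =>
          { toFun := fun v => ρ g v
            map_add' := fun x y => map_add _ x y
            map_smul' := fun l v => hlin g l v }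
        map_one' := by
          apply LinearMap.ext
          intro v
          show ρ 1 v = v
          rw [map_one]; rfl
        map_mul' := fun g h => by
          apply LinearMap.ext
          intro v
          show ρ (g * h) v = ρ g (ρ h v)
          rw [map_mul]; rfl }
    have hρL : Function.Injective ρL := by
      intro g h hgh
      apply hρ
      apply LinearMap.ext
      intro v
      exact congrArg (fun ψ : Module.End (AdjoinRoot μ) V => ψ v) hgh
    -- `V` is nontrivial
    have : Nontrivial V := by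
      by_contra hV
      rw [not_nontrivial_iff_subsingleton] at hV
      exact hf1 (LinearMap.ext fun v => Subsingleton.elim _ _)
    have hm : 1 ≤ finrank (AdjoinRoot μ) V := Module.finrank_pos
    obtain ⟨m, hmdef⟩ : ∃ m : ℕ, m = finrank (AdjoinRoot μ) V := ⟨_, rfl⟩
    let b : Basis (Fin m) (AdjoinRoot μ) V := Module.finBasisOfFinrankEq (AdjoinRoot μ) V hmdef.symm
    let τ₀ : G →* Matrix (Fin m) (Fin m) (AdjoinRoot μ) :=
      ((LinearMap.toMatrixAlgEquiv b : Module.End (AdjoinRoot μ) V ≃ₐ[AdjoinRoot μ] _) :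
        Module.End (AdjoinRoot μ) V →* Matrix (Fin m) (Fin m) (AdjoinRoot μ)).comp ρL
    have hτ₀ : Function.Injective τ₀ := by
      intro g h hgh
      apply hρL
      exact (LinearMap.toMatrixAlgEquiv b).injective hgh
    have hτ : Function.Injective τ₀.toHomUnits := by
      intro g h hgh
      apply hτ₀
      have := congrArg (fun x : (Matrix (Fin m) (Fin m) (AdjoinRoot μ))ˣ =>
        (x : Matrix (Fin m) (Fin m) (AdjoinRoot μ))) hgh
      simpa only [MonoidHom.coe_toHomUnits] using this
    have hpL : (p : AdjoinRoot μ) ≠ 0 := by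
      intro h0
      apply hpF
      have h1 : algebraMap F (AdjoinRoot μ) (p : F) = 0 := by rw [map_natCast]; exact h0
      exact (map_eq_zero (algebraMap F (AdjoinRoot μ))).mp h1
    have hres := gl_bound_p p hG (AdjoinRoot μ) hpL m τ₀.toHomUnits hτ
    -- the degree of the extension is divisible by `e`
    obtain ⟨θ, hθdef⟩ : ∃ θ : AdjoinRoot μ, θ = AdjoinRoot.root μ := ⟨_, rfl⟩
    have hθp : θ ^ p = 1 := by
      have h1 : AdjoinRoot.mk μ (X ^ p - 1) = 0 := AdjoinRoot.mk_eq_zero.mpr hμdvd
      rw [map_sub, map_pow, AdjoinRoot.mk_X, map_one] at h1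
      rw [hθdef]
      exact sub_eq_zero.mp h1
    have hθ1 : θ ≠ 1 := by
      intro h
      have h1 : AdjoinRoot.mk μ (X - 1) = 0 := by
        rw [map_sub, AdjoinRoot.mk_X, map_one, ← hθdef, h, sub_self]
      obtain ⟨c, hc⟩ := AdjoinRoot.mk_eq_zero.mp h1
      have h2 : aeval f (X - 1 : F[X]) = 0 := by rw [hc, map_mul, hμf, zero_mul]
      rw [map_sub, aeval_X, map_one] at h2
      exact hf1 (sub_eq_zero.mp h2)
    have hθ0 : θ ≠ 0 := by
      rintro rfl
      rw [zero_pow hpp.ne_zero] at hθp
      exact zero_ne_one hθp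
    have hord : orderOf θ = p := orderOf_eq_prime hθp hθ1
    have : Finite (AdjoinRoot μ) := Module.finite_of_finite F
    have hcard : Nat.card (AdjoinRoot μ) = Nat.card F ^ finrank F (AdjoinRoot μ) :=
      Module.natCard_eq_pow_finrank (K := F) (V := AdjoinRoot μ)
    have : Fintype (AdjoinRoot μ) := Fintype.ofFinite _
    have hpow : θ ^ (Fintype.card (AdjoinRoot μ) - 1) = 1 :=
      FiniteField.pow_card_sub_one_eq_one θ hθ0
    have hdvd : p ∣ Nat.card F ^ finrank F (AdjoinRoot μ) - 1 := by
      rw [← hcard, Nat.card_eq_fintype_card, ← hord]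
      exact orderOf_dvd_of_pow_eq_one hpow
    have hFpos : 0 < Nat.card F := Nat.card_pos
    have hqpow : ((Nat.card F : ℕ) : ZMod p) ^ finrank F (AdjoinRoot μ) = 1 := by
      have h1 := (ZMod.natCast_eq_zero_iff _ _).mpr hdvd
      rw [Nat.cast_sub (Nat.one_le_pow _ _ hFpos), Nat.cast_pow, Nat.cast_one, sub_eq_zero] at h1
      exact h1
    have hedvd : e ∣ finrank F (AdjoinRoot μ) := he ▸ orderOf_dvd_of_pow_eq_one hqpow
    have hδpos : 0 < finrank F (AdjoinRoot μ) := Module.finrank_pos
    have hele : e ≤ finrank F (AdjoinRoot μ) := Nat.le_of_dvd hδpos hedvd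
    have hepos : 0 < e := by
      rcases Nat.eq_zero_or_pos e with h0 | h0
      · rw [h0, zero_dvd_iff] at hedvd; omega
      · exact h0
    have hmul : finrank F (AdjoinRoot μ) * finrank (AdjoinRoot μ) V = finrank F V :=
      Module.finrank_mul_finrank F (AdjoinRoot μ) V
    have hmle : m ≤ N / e := by
      rw [Nat.le_div_iff_mul_le hepos, ← hN, ← hmul, hmdef, mul_comm]
      exact Nat.mul_le_mul_right _ hele
    rw [eq_bot_iff, ← hres]
    exact derivedSeries_antitone (G := G) (Nat.succ_le_succ (Nat.log_mono_right hmle))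
  · -- the minimal polynomial splits into two coprime factors
    have hnt : Nontrivial (Module.End F V) := ⟨⟨f, 1, hf1⟩⟩
    have hnu : ¬IsUnit μ := hμdef ▸ minpoly.not_isUnit F f
    obtain ⟨a, b, hab, ha, hb⟩ : ∃ a b : F[X], μ = a * b ∧ ¬IsUnit a ∧ ¬IsUnit b := by
      by_contra hcon
      push Not at hcon
      apply hirr
      refine ⟨hnu, fun a b hab => ?_⟩
      by_cases ha : IsUnit a
      · exact Or.inl ha
      · exact Or.inr (hcon a b hab ha)
    have hcop : IsCoprime a b := (hab ▸ hμsep : (a * b).Separable).isCoprime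
    have hsup : LinearMap.ker (aeval f a) ⊔ LinearMap.ker (aeval f b) = ⊤ := by
      rw [Polynomial.sup_ker_aeval_eq_ker_aeval_mul_of_coprime f hcop, ← hab, hμf]
      exact LinearMap.ker_zero
    have hne : ∀ c d : F[X], μ = c * d → ¬IsUnit d → LinearMap.ker (aeval f c) ≠ ⊤ := by
      intro c d hcd hd htop
      have h0 : aeval f c = 0 := LinearMap.ker_eq_top.mp htop
      have hdvd := hμdvd' c h0
      rw [hcd] at hdvd
      have hc0 : c ≠ 0 := by
        rintro rfl
        exact hμ0 (by rw [hcd, zero_mul])
      obtain ⟨k, hk⟩ := hdvd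
      have h1 : c * 1 = c * (d * k) := by rw [mul_one, ← mul_assoc]; exact hk
      have h2 := mul_left_cancel₀ hc0 h1
      exact hd (IsUnit.of_mul_eq_one _ h2.symm)
    have hlt : ∀ c : F[X], LinearMap.ker (aeval f c) ≠ ⊤ →
        derivedSeries G (Nat.log p (N / e) + 1) ≤
          (resRep ρ (LinearMap.ker (aeval f c)) (hinv c)).ker := by
      intro c hc
      have h1 : finrank F (LinearMap.ker (aeval f c)) < N :=
        hN ▸ Submodule.finrank_lt hc
      have h2 := ih _ h1 (LinearMap.ker (aeval f c)) G hG
        (resRep ρ (LinearMap.ker (aeval f c)) (hinv c)) rfl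
      refine le_trans (derivedSeries_antitone (G := G) ?_) h2
      exact Nat.succ_le_succ (Nat.log_mono_right (Nat.div_le_div_right h1.le))
    have hU := hlt a (hne a b hab hb)
    have hW := hlt b (hne b a (by rw [hab, mul_comm]) ha)
    rw [eq_bot_iff]
    intro g hg
    rw [Subgroup.mem_bot]
    apply hρ
    rw [map_one]
    apply LinearMap.ext
    intro v
    have hv : v ∈ LinearMap.ker (aeval f a) ⊔ LinearMap.ker (aeval f b) := by
      rw [hsup]; exact Submodule.mem_top
    obtain ⟨u, hu, w, hw, rfl⟩ := Submodule.mem_sup.mp hv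
    rw [map_add, apply_eq_of_mem_ker_resRep ρ _ (hinv a) (hU hg) hu,
      apply_eq_of_mem_ker_resRep ρ _ (hinv b) (hW hg) hw]
    rfl


end Cfsg.Agent.Helper65.PLinear
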